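import Cfsg.Agent.S5642
import Cfsg.Agent.H929.SimU

/-!
# Overgroups of `Sp(f)` and `SU(f)` in `GL_n(q)`, `n ≥ 4` (helper831, for S3691)

`ov_sp`, `ov_su`: the proofs of S5642 and of `H929.sl_le_of_unitary` with weaker hypotheses (only the transvections of the
isometry group are used).
-/

set_option autoImplicit false
set_option linter.unusedSectionVars false

open Cfsg Cfsg.Geo

namespace Cfsg.Agent.H831.Rl

open Matrix Cfsg.Agent.H873

section sp

open Cfsg.Agent.S5642

variable {ι : Type} [Fintype ι] [DecidableEq ι] {F : Type*} [Field F] {f : (ι → F) → (ι → F) → F}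

/-- all the symplectic transvections lie in `M` -/
def SpT (f : (ι → F) → (ι → F) → F) (M : Subgroup (GL ι F)) : Prop := ∀ (c : F) (v : ι → F), HasTv M (c • v) (rep f v)

theorem spT_of (hf : IsSymplecticForm f) {M : Subgroup (GL ι F)}
    (hM : ∀ x : GL ι F, FixesForm {(x : Matrix ι ι F)} f → x ∈ M) : SpT f M := by
  intro c v
  have h0 : rep f v ⬝ᵥ (c • v) = 0 := by
    rw [rep_dot hf.bilinear, hf.bilinear.smul_right, hf.alternating, mul_zero]
  rw [hasTv_iff]
  refine ⟨h0, hM _ ?_⟩
  intro s hs x y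
  rw [Set.mem_singleton_iff] at hs
  rw [hs, tv_mulVec, tv_mulVec, rep_dot hf.bilinear, rep_dot hf.bilinear]
  simp only [hf.bilinear.add_left, hf.bilinear.add_right, hf.bilinear.smul_left,
    hf.bilinear.smul_right, hf.alternating]
  rw [hf.skew x v]
  ring

/-- If `M` contains a transvection with centre `v` and axis `ψ` not equal to `v^⊥` and all symplectic
transvections, then it contains all the transvections with that axis. -/
theorem full_axis (hf : Cfsg.Geo.IsSymplecticForm f) {M : Subgroup (GL ι F)}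
    (hM : SpT f M) {v ψ : ι → F}
    (hv : HasTv M v ψ) (hp : ∀ c : F, rep f v ≠ c • ψ) (b : ι → F) (hb : ψ ⬝ᵥ b = 0) :
    HasTv M b ψ := by
  have key : ∀ a, ψ ⬝ᵥ a = 0 → f v a ≠ 0 → HasTv M a ψ := by
    intro a ha hva
    have h1 : HasTv M a ((-(f v a)⁻¹) • rep f a) :=
      (hasTv_smul_comm _ _ _ _).1 (hM _ a)
    have h2 := hv.comm h1 ha
    rw [smul_dotProduct, rep_dot hf.bilinear, hf.skew a v, smul_eq_mul, neg_mul_neg,
      inv_mul_cancel₀ hva, one_smul] at h2
    exact h2
  by_cases hvb : f v b = 0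
  · obtain ⟨a, ha, hva⟩ := exists_ker hp
    rw [rep_dot hf.bilinear] at hva
    have h1 := key a ha hva
    have h2 := key (b + a) (by rw [dotProduct_add, ha, hb, add_zero])
      (by rw [hf.bilinear.add_right, hvb, zero_add]; exact hva)
    have h3 := h2.sub_left h1
    rwa [add_sub_cancel_right] at h3
  · exact key b hb hvb

/-- Spreading the axis. -/
theorem spread (hf : Cfsg.Geo.IsSymplecticForm f) {M : Subgroup (GL ι F)}
    (hM : SpT f M) {w : ι → F}
    (hw : ∀ b, f w b = 0 → HasTv M b (rep f w)) (w' : ι → F) (hww : f w w' ≠ 0) :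
    ∀ b, f w' b = 0 → HasTv M b (rep f w') := by
  intro b hb
  -- the transvection with centre w' - w taking w to w'
  have hne : f (w' - w) w ≠ 0 := by
    rw [hf.skew, f_sub_right hf.bilinear, hf.alternating, sub_zero]
    exact neg_ne_zero.2 hww
  set c := (f (w' - w) w)⁻¹ with hc
  obtain ⟨h0, hm⟩ := (hasTv_iff _ _ _).1 (hM c (w' - w))
  have hgw : (tv (c • (w' - w)) (rep f (w' - w)) h0 : Matrix ι ι F) *ᵥ w = w' := by
    rw [tv_mulVec, rep_dot hf.bilinear, smul_smul, hc, mul_inv_cancel₀ hne, one_smul]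
    abel
  have hiso : ∀ x y, f ((tv (c • (w' - w)) (rep f (w' - w)) h0 : Matrix ι ι F) *ᵥ x)
      ((tv (c • (w' - w)) (rep f (w' - w)) h0 : Matrix ι ι F) *ᵥ y) = f x y := by
    intro x y
    rw [tv_mulVec, tv_mulVec, rep_dot hf.bilinear, rep_dot hf.bilinear]
    simp only [hf.bilinear.add_left, hf.bilinear.add_right, hf.bilinear.smul_left,
      hf.bilinear.smul_right, hf.alternating]
    rw [hf.skew x (w' - w)]
    ring
  generalize htt : tv (c • (w' - w)) (rep f (w' - w)) h0 = g at *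
  have hginv : ∀ x, (g : Matrix ι ι F) *ᵥ (((g⁻¹ : GL ι F) : Matrix ι ι F) *ᵥ x) = x := by
    intro x
    rw [mulVec_mulVec, ← Units.val_mul, mul_inv_cancel, Units.val_one, one_mulVec]
  have h1 := (hw (((g⁻¹ : GL ι F) : Matrix ι ι F) *ᵥ b) (by
    rw [← hiso, hgw, hginv, hb])).conj hm
  rw [hginv] at h1
  convert h1 using 1
  apply dot_ext
  intro u
  rw [← dotProduct_mulVec, rep_dot hf.bilinear, rep_dot hf.bilinear]
  conv_rhs => rw [← hiso, hgw, hginv]

/-- In a subgroup containing `Sp` one full axis gives everything. -/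
theorem top_of_full (hf : Cfsg.Geo.IsSymplecticForm f) [Nontrivial ι] {M : Subgroup (GL ι F)}
    (hM : SpT f M) {w : ι → F} (hw0 : w ≠ 0)
    (hw : ∀ b, f w b = 0 → HasTv M b (rep f w)) :
    Cfsg.Geo.specialLinear ι F ≤ M := by
  have key : ∀ w', w' ≠ 0 → ∀ b, f w' b = 0 → HasTv M b (rep f w') := by
    intro w' hw'
    by_cases hww : f w w' ≠ 0
    · exact spread hf hM hw w' hww
    · push Not at hww
      obtain ⟨-, x, hx⟩ := hf.nondegenerate w hw0
      obtain ⟨⟨y, hy⟩, -⟩ := hf.nondegenerate w' hw'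
      -- some z with f w z ≠ 0 and f z w' ≠ 0
      obtain ⟨z, hz, hz'⟩ : ∃ z, f w z ≠ 0 ∧ f z w' ≠ 0 := by
        by_cases h1 : f x w' = 0
        · by_cases h2 : f w y = 0
          · exact ⟨x + y, by rw [hf.bilinear.add_right, h2, add_zero]; exact hx,
              by rw [hf.bilinear.add_left, h1, zero_add]; exact hy⟩
          · exact ⟨y, h2, hy⟩
        · exact ⟨x, hx, h1⟩
      exact spread hf hM (spread hf hM hw z hz) w' hz'
  refine specialLinear_le_of_hasTv fun i j hij c => ?_
  obtain ⟨w', hw'⟩ := exists_rep hf (Pi.single j (1 : F))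
  have hne : w' ≠ 0 := by
    rintro rfl
    have : rep f 0 = 0 := by
      have := rep_smul hf.bilinear 0 (0 : ι → F)
      simpa using this
    rw [this] at hw'
    have := congrFun hw' j
    simp at this
  rw [← hw']
  refine key w' hne _ ?_
  rw [← rep_dot hf.bilinear, hw']
  simp [hij]

theorem ov_sp_gen (hn : 2 ≤ Fintype.card ι) (hf : IsSymplecticForm f)
    {M : Subgroup (GL ι F)} (hM : SpT f M)
    {g : GL ι F} (hgM : g ∈ M) (hgn : g ∉ similarityGroup f) : specialLinear ι F ≤ M := by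
  classical
  have : Nontrivial ι := Fintype.one_lt_card_iff_nontrivial.1 (by omega)
  have h1 : ¬ ∀ v, v ≠ 0 → ∃ c : F, ∀ u, f v u =
      c * f ((g : Matrix ι ι F) *ᵥ v) ((g : Matrix ι ι F) *ᵥ u) := fun h =>
    hgn (sim_of_prop hf g h)
  push Not at h1
  obtain ⟨v, hv0, hv⟩ := h1
  have hginv : ∀ x, (g : Matrix ι ι F) *ᵥ (((g⁻¹ : GL ι F) : Matrix ι ι F) *ᵥ x) = x := by
    intro x
    rw [mulVec_mulVec, ← Units.val_mul, mul_inv_cancel, Units.val_one, one_mulVec]
  have hginv' : ∀ x, ((g⁻¹ : GL ι F) : Matrix ι ι F) *ᵥ ((g : Matrix ι ι F) *ᵥ x) = x := by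
    intro x
    rw [mulVec_mulVec, ← Units.val_mul, inv_mul_cancel, Units.val_one, one_mulVec]
  have hx : HasTv M v (rep f v) := by
    have := hM 1 v
    rwa [one_smul] at this
  have hx' := hx.conj hgM
  set ψ := rep f v ᵥ* ((g⁻¹ : GL ι F) : Matrix ι ι F) with hψ
  have hψdot : ∀ u, ψ ⬝ᵥ u = f v (((g⁻¹ : GL ι F) : Matrix ι ι F) *ᵥ u) := by
    intro u
    rw [hψ, ← dotProduct_mulVec, rep_dot hf.bilinear]
  have hψ0 : ψ ≠ 0 := by
    intro h0
    obtain ⟨-, x, hx⟩ := hf.nondegenerate v hv0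
    apply hx
    have := hψdot ((g : Matrix ι ι F) *ᵥ x)
    rw [hginv', h0, zero_dotProduct] at this
    exact this.symm
  have hp : ∀ c : F, rep f ((g : Matrix ι ι F) *ᵥ v) ≠ c • ψ := by
    intro c hcc
    have hc0 : c ≠ 0 := by
      rintro rfl
      rw [zero_smul] at hcc
      have hne : (g : Matrix ι ι F) *ᵥ v ≠ 0 := by
        intro h0
        apply hv0
        rw [← hginv' v, h0, mulVec_zero]
      obtain ⟨-, x, hx⟩ := hf.nondegenerate _ hne
      apply hx
      rw [← rep_dot hf.bilinear, hcc, zero_dotProduct]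
    obtain ⟨u, hu⟩ := hv c⁻¹
    apply hu
    rw [← rep_dot hf.bilinear (((g : Matrix ι ι F) *ᵥ v)), hcc, smul_dotProduct, hψdot, hginv',
      smul_eq_mul, ← mul_assoc, inv_mul_cancel₀ hc0, one_mul]
  have hfull := full_axis hf hM hx' hp
  obtain ⟨w, hw⟩ := exists_rep hf ψ
  have hw0 : w ≠ 0 := by
    rintro rfl
    apply hψ0
    rw [← hw]
    have := rep_smul hf.bilinear 0 (0 : ι → F)
    simpa using this
  refine top_of_full hf hM hw0 ?_
  intro b hb
  rw [hw]
  refine hfull b ?_
  rw [← hw, rep_dot hf.bilinear, hb]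


/-- **PSL-1a** -/
theorem ov_sp {ι : Type} [Fintype ι] [DecidableEq ι] {F : Type} [Field F] [Finite F] (hn : 4 ≤ Fintype.card ι)
    {f : (ι → F) → (ι → F) → F} (hf : IsSymplecticForm f)
    {M : Subgroup (GL ι F)} (hM : ∀ x : GL ι F, FixesForm {(x : Matrix ι ι F)} f → x ∈ M)
    {g : GL ι F} (hgM : g ∈ M) (hg : g ∉ similarityGroup f) : specialLinear ι F ≤ M :=
  ov_sp_gen (by omega) hf (spT_of hf hM) hgM hg

end sp

section su

open Cfsg.Agent.H929

variable {ι : Type} [Fintype ι] [DecidableEq ι] {F : Type*} [Field F] {σ : F ≃+* F}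
  {f : (ι → F) → (ι → F) → F}

/-- all the unitary transvections lie in `M` -/
def SuT (σ : F ≃+* F) (f : (ι → F) → (ι → F) → F) (M : Subgroup (GL ι F)) : Prop :=
  ∀ (c : F), σ c = -c → ∀ v : ι → F, f v v = 0 → HasTv M (c • v) (rC f v)

theorem suT_of (hf : Herm σ f) {M : Subgroup (GL ι F)}
    (hM : ∀ x : GL ι F, FixesForm {(x : Matrix ι ι F)} f → Matrix.GeneralLinearGroup.det x = 1 → x ∈ M) :
    SuT σ f M := by
  intro c hc v hv
  have h0 : rC f v ⬝ᵥ (c • v) = 0 := by
    rw [hf.rC_dot, hf.smul_left, hv, mul_zero]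
  rw [hasTv_iff]
  refine ⟨h0, hM _ ?_ (tv_mem_specialLinear _ _ h0)⟩
  intro s hs x y
  rw [Set.mem_singleton_iff] at hs
  rw [hs, tv_mulVec, tv_mulVec, hf.rC_dot, hf.rC_dot, hf.add_left, hf.add_right, hf.add_right,
    hf.smul_left, hf.smul_left, hf.smul_left, hf.smul_left, hf.smul_right, hf.smul_right,
    hf.smul_right, hf.smul_right, hv, hc, hf.herm v y]
  ring

/-- The main theorem: a subgroup of `GL` containing the special similarities of a non-degenerate
unitary form and an element which is not a similarity contains `SL`. -/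
theorem ov_su_gen [Finite F] (hn : 4 ≤ Fintype.card ι) (hf : Cfsg.Geo.IsUnitaryForm σ f)
    {M : Subgroup (GL ι F)}
    (hM : SuT σ f M) {g : GL ι F} (hgM : g ∈ M)
    (hg : g ∉ Cfsg.Geo.similarityGroup f) : Cfsg.Geo.specialLinear ι F ≤ M := by
  have hne := hf.ne_refl
  have hF := Herm.of_unitary hf
  have hnd : ∀ x, x ≠ 0 → ∃ y, f x y ≠ 0 := fun x hx => (hf.nondegenerate x hx).2
  have hnt : Nontrivial ι := Fintype.one_lt_card_iff_nontrivial.1 (by omega)
  obtain ⟨e, he0, he⟩ := exists_trace_zero hF.inv hne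
  -- the transported form
  set gi : Matrix ι ι F := ((g⁻¹ : GL ι F) : Matrix ι ι F) with hgi
  set f' : (ι → F) → (ι → F) → F := fun x y => f (gi *ᵥ x) (gi *ᵥ y) with hf'
  have hF' : Herm σ f' := by
    refine ⟨hF.inv, fun x y v => ?_, fun c x v => ?_, fun v w => ?_⟩
    · simp only [hf', mulVec_add, hF.add_left]
    · simp only [hf', mulVec_smul, hF.smul_left]
    · simp only [hf']; exact hF.herm _ _
  have hgx : ∀ x, gi *ᵥ ((g : Matrix ι ι F) *ᵥ x) = x := inv_mulVec_cancel g
  have hgx' : ∀ x, (g : Matrix ι ι F) *ᵥ (gi *ᵥ x) = x := mulVec_inv_cancel g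
  have hnd' : ∀ x, x ≠ 0 → ∃ y, f' x y ≠ 0 := by
    intro x hx
    obtain ⟨y, hy⟩ := hnd (gi *ᵥ x) (fun h0 => hx (by rw [← hgx' x, h0, mulVec_zero]))
    exact ⟨(g : Matrix ι ι F) *ᵥ y, by simp only [hf', hgx]; exact hy⟩
  -- B
  have hB : ∀ x, ∃ w, rC f w = rC f' x := fun x => hF.exists_rC hnd _
  choose B hBx using hB
  have hB' : ∀ x y, f y (B x) = f' y x := fun x y => by
    rw [← hF.rC_dot, hBx, hF'.rC_dot]
  have hinj : ∀ u w : ι → F, (∀ y, f y u = f y w) → u = w := by
    intro u w huw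
    by_contra hne
    obtain ⟨y, hy⟩ := hnd (u - w) (sub_ne_zero.2 hne)
    apply hy
    rw [hF.herm, hF.sub_right, huw, sub_self, map_zero]
  have hBadd : ∀ x y, B (x + y) = B x + B y := fun x y => hinj _ _ fun z => by
    rw [hF.add_right, hB', hB', hB', hF'.add_right]
  have hBsmul : ∀ (c : F) x, B (c • x) = c • B x := fun c x => hinj _ _ fun z => by
    rw [hF.smul_right, hB', hB', hF'.smul_right]
  obtain ⟨v, hv, hw⟩ : ∃ v, f' v v = 0 ∧ f (B v) (B v) ≠ 0 := by
    by_contra hcon
    push Not at hcon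
    have hh : Herm σ (fun x y => f (B x) (B y)) := by
      refine ⟨hF.inv, fun x y v => ?_, fun c x v => ?_, fun v w => hF.herm _ _⟩
      · simp only [hBadd, hF.add_left]
      · simp only [hBsmul, hF.smul_left]
    obtain ⟨c, hc, hcc⟩ := hF'.prop_of_isotropic hh hne hnd' (by omega) hcon
    have hBc : ∀ x, B x = c • x := by
      intro x
      by_contra hne
      obtain ⟨y, hy⟩ := hnd' (B x - c • x) (sub_ne_zero.2 hne)
      apply hy
      rw [hF'.sub_left, hF'.smul_left, ← hcc, ← hB', sub_self]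
    apply hg
    have hsim : g⁻¹ ∈ Cfsg.Geo.similarityGroup f := by
      have hc0 : c ≠ 0 := by
        rintro rfl
        obtain ⟨i, -⟩ := exists_pair_ne ι
        have h0 : (Pi.single i 1 : ι → F) ≠ 0 := by
          intro h0
          have := congrFun h0 i
          simp at this
        obtain ⟨y, hy⟩ := hnd' _ h0
        apply hy
        rw [hF'.herm, ← hB', hBc, zero_smul, hF.zero_right, map_zero]
      refine ⟨Units.mk0 c hc0, fun x y => ?_⟩
      change f' x y = _
      rw [← hB', hBc, hF.smul_right, hc, Units.val_mk0]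
    have := (Cfsg.Geo.similarityGroup f).inv_mem hsim
    rwa [inv_inv] at this
  set w := B v with hwdef
  set ψ := rC f w with hψ
  have hψdot : ∀ x, ψ ⬝ᵥ x = f x w := fun x => hF.rC_dot w x
  have hv0 : v ≠ 0 := by
    rintro rfl
    apply hw
    have : w = 0 := by
      rw [hwdef]
      have := hBsmul 0 0
      simpa using this
    rw [this, hF.zero_left]
  -- the transvection with axis ψ
  have hTv : HasTv M (e • v) ψ := by
    have h1 := (hM e he (gi *ᵥ v) hv).conj hgM
    rw [mulVec_smul, hgx'] at h1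
    have h2 : rC f (gi *ᵥ v) ᵥ* ((g⁻¹ : GL ι F) : Matrix ι ι F) = ψ := by
      rw [hψ, hBx]
      apply dot_ext
      intro x
      rw [← dotProduct_mulVec, hF.rC_dot, hF'.rC_dot]
    rwa [h2] at h1
  -- the hyperplane
  let H : Submodule F (ι → F) :=
    { carrier := {x | ψ ⬝ᵥ x = 0}
      add_mem' := fun {a b} ha hb => by
        change ψ ⬝ᵥ (a + b) = 0
        rw [dotProduct_add, show ψ ⬝ᵥ a = 0 from ha, show ψ ⬝ᵥ b = 0 from hb, add_zero]
      zero_mem' := by simp
      smul_mem' := fun c x hx => by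
        change ψ ⬝ᵥ (c • x) = 0
        rw [dotProduct_smul, show ψ ⬝ᵥ x = 0 from hx, smul_zero] }
  have hmemH : ∀ x, x ∈ H ↔ f x w = 0 := fun x => by rw [← hψdot]; rfl
  have hHnd : ∀ x ∈ H, x ≠ 0 → ∃ y ∈ H, f x y ≠ 0 := by
    intro x hx hx0
    obtain ⟨y, hy⟩ := hnd x hx0
    refine ⟨y - (f y w / f w w) • w, ?_, ?_⟩
    · rw [hmemH, hF.sub_left, hF.smul_left, div_mul_cancel₀ _ hw, sub_self]
    · rw [hF.sub_right, hF.smul_right, (hmemH x).1 hx, mul_zero, sub_zero]
      exact hy
  have hH2 : ∀ v ∈ H, ∃ x ∈ H, ∀ c : F, x ≠ c • v := by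
    intro v hv
    let L : (ι → F) →ₗ[F] F :=
      { toFun := fun x => ψ ⬝ᵥ x
        map_add' := fun x y => dotProduct_add _ _ _
        map_smul' := fun c x => by simp [dotProduct_smul] }
    have hker : H = LinearMap.ker L := by ext x; rfl
    by_contra hcon
    push Not at hcon
    have hle : H ≤ Submodule.span F {v} := by
      intro x hx
      obtain ⟨c, hc⟩ := hcon x hx
      rw [hc]
      exact Submodule.smul_mem _ _ (Submodule.mem_span_singleton_self v)
    have h1 := Submodule.finrank_mono hle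
    have h2 : Module.finrank F (Submodule.span F {v}) ≤ 1 := by
      have := finrank_span_le_card (R := F) ({v} : Set (ι → F))
      simpa using this
    have h3 := L.finrank_range_add_finrank_ker
    have h4 : Module.finrank F (LinearMap.range L) ≤ 1 := by
      calc _ ≤ Module.finrank F F := Submodule.finrank_le _
        _ = 1 := Module.finrank_self F
    rw [Module.finrank_pi] at h3
    rw [hker] at h1
    omega
  have hH3 : ∀ a ∈ H, ∀ b ∈ H, f a a = 0 → f b b = 0 → f a b = 1 →
      ∃ z ∈ H, f a z = 0 ∧ f b z = 0 ∧ f z z ≠ 0 := by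
    intro a ha b hb haa hbb hab
    have hba : f b a = 1 := by rw [hF.herm, hab, map_one]
    have haw := (hmemH a).1 ha
    have hbw := (hmemH b).1 hb
    have hwa : f w a = 0 := by rw [hF.herm, haw, map_zero]
    have hwb : f w b = 0 := by rw [hF.herm, hbw, map_zero]
    let L : (ι → F) →ₗ[F] (Fin 3 → F) :=
      { toFun := fun x => ![f x w, f x a, f x b]
        map_add' := fun x y => by simp [hF.add_left]
        map_smul' := fun c x => by simp [hF.smul_left] }
    have hmemL : ∀ x, x ∈ LinearMap.ker L ↔ f x w = 0 ∧ f x a = 0 ∧ f x b = 0 := by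
      intro x
      rw [LinearMap.mem_ker]
      constructor
      · intro h0
        exact ⟨congrFun h0 0, congrFun h0 1, congrFun h0 2⟩
      · rintro ⟨h0, h1, h2⟩
        change ![f x w, f x a, f x b] = 0
        rw [h0, h1, h2]
        ext i; fin_cases i <;> rfl
    have hker : LinearMap.ker L ≠ ⊥ := by
      apply LinearMap.ker_ne_bot_of_finrank_lt
      rw [Module.finrank_pi, Module.finrank_pi, Fintype.card_fin]
      omega
    obtain ⟨x, hx, hx0⟩ := (Submodule.ne_bot_iff _).1 hker
    obtain ⟨u, hu, huu⟩ := hF.exists_nonisotropic hne (LinearMap.ker L) (by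
      intro x hx hx0
      obtain ⟨y, hy⟩ := hnd x hx0
      obtain ⟨h1, h2, h3⟩ := (hmemL x).1 hx
      refine ⟨y - (f y w / f w w) • w - f y b • a - f y a • b, ?_, ?_⟩
      · rw [hmemL]
        refine ⟨?_, ?_, ?_⟩
        · rw [hF.sub_left, hF.sub_left, hF.sub_left, hF.smul_left, hF.smul_left, hF.smul_left,
            haw, hbw, div_mul_cancel₀ _ hw]
          ring
        · rw [hF.sub_left, hF.sub_left, hF.sub_left, hF.smul_left, hF.smul_left, hF.smul_left,
            haa, hba, hwa]
          ring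
        · rw [hF.sub_left, hF.sub_left, hF.sub_left, hF.smul_left, hF.smul_left, hF.smul_left,
            hab, hbb, hwb]
          ring
      · rw [hF.sub_right, hF.sub_right, hF.sub_right, hF.smul_right, hF.smul_right,
          hF.smul_right, h1, h2, h3]
        simpa using hy) hx hx0
    obtain ⟨h1, h2, h3⟩ := (hmemL u).1 hu
    exact ⟨u, (hmemH u).2 h1, by rw [hF.herm, h2, map_zero], by rw [hF.herm, h3, map_zero], huu⟩
  have hfull : FullAxis M ψ := by
    intro b hb
    refine hF.irr hne H hHnd hH2 hH3 {b | HasTv M b ψ} (fun x hx y hy => HasTv.add_left hx hy)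
      (fun x hx => HasTv.neg_left hx) ?_ (fun x hx => hx.1) hTv ?_ b hb
    · intro b hb a ha haa c hc
      have h1 := HasTv.comm hb (hM c hc a haa) (by
        rw [dotProduct_smul, show ψ ⬝ᵥ a = 0 from ha, smul_zero])
      rw [hF.rC_dot, smul_smul, mul_comm] at h1
      exact h1
    · exact smul_ne_zero he0 hv0
  -- spreading
  apply sl_le_of_axes
  rw [eq_top_iff]
  intro φ _
  obtain ⟨u, rfl⟩ := hF.exists_rC hnd φ
  refine hF.irr hne ⊤ (fun x _ hx0 => ?_) (fun v _ => ?_) ?_ {u | FullAxis M (rC f u)}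
    (fun x hx y hy => ?_) (fun x hx => ?_) ?_ (fun _ _ => trivial) (v := w) hfull ?_ u trivial
  · obtain ⟨y, hy⟩ := hnd x hx0
    exact ⟨y, trivial, hy⟩
  · obtain ⟨x, hx⟩ := exists_not_smul (show 2 ≤ Fintype.card ι by omega) v
    exact ⟨x, trivial, hx⟩
  · intro a _ b _ haa hbb hab
    have hba : f b a = 1 := by rw [hF.herm, hab, map_one]
    let L : (ι → F) →ₗ[F] (Fin 2 → F) :=
      { toFun := fun x => ![f x a, f x b]
        map_add' := fun x y => by simp [hF.add_left]
        map_smul' := fun c x => by simp [hF.smul_left] }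
    have hmemL : ∀ x, x ∈ LinearMap.ker L ↔ f x a = 0 ∧ f x b = 0 := by
      intro x
      rw [LinearMap.mem_ker]
      constructor
      · intro h0
        exact ⟨congrFun h0 0, congrFun h0 1⟩
      · rintro ⟨h1, h2⟩
        change ![f x a, f x b] = 0
        rw [h1, h2]
        ext i; fin_cases i <;> rfl
    have hker : LinearMap.ker L ≠ ⊥ := by
      apply LinearMap.ker_ne_bot_of_finrank_lt
      rw [Module.finrank_pi, Module.finrank_pi, Fintype.card_fin]
      omega
    obtain ⟨x, hx, hx0⟩ := (Submodule.ne_bot_iff _).1 hker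
    obtain ⟨u, hu, huu⟩ := hF.exists_nonisotropic hne (LinearMap.ker L) (by
      intro x hx hx0
      obtain ⟨y, hy⟩ := hnd x hx0
      obtain ⟨h2, h3⟩ := (hmemL x).1 hx
      refine ⟨y - f y b • a - f y a • b, ?_, ?_⟩
      · rw [hmemL]
        refine ⟨?_, ?_⟩
        · rw [hF.sub_left, hF.sub_left, hF.smul_left, hF.smul_left, haa, hba]
          ring
        · rw [hF.sub_left, hF.sub_left, hF.smul_left, hF.smul_left, hab, hbb]
          ring
      · rw [hF.sub_right, hF.sub_right, hF.smul_right, hF.smul_right, h2, h3]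
        simpa using hy) hx hx0
    obtain ⟨h2, h3⟩ := (hmemL u).1 hu
    exact ⟨u, trivial, by rw [hF.herm, h2, map_zero], by rw [hF.herm, h3, map_zero], huu⟩
  · change FullAxis M (rC f (x + y))
    rw [hF.rC_add]
    exact FullAxis.add hx hy
  · change FullAxis M (rC f (-x))
    rw [hF.rC_neg]
    have h1 : FullAxis M (rC f x) := hx
    have := h1.smul (-1)
    rwa [neg_one_smul] at this
  · intro b hb a _ haa c hc
    have hb' : FullAxis M (rC f b) := hb
    obtain ⟨h0, hm⟩ := (hasTv_iff _ _ _).1 (hM c hc a haa)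
    have h1 := hb'.conj hm
    have h2 : rC f b ᵥ* (((tv (c • a) (rC f a) h0)⁻¹ : GL ι F) : Matrix ι ι F) =
        rC f b + rC f ((c * f b a) • a) := by
      change rC f b ᵥ* (1 - vecMulVec (c • a) (rC f a)) = _
      rw [vecMul_sub, vecMul_one, vecMul_vecMulVec, dotProduct_smul, hF.rC_dot, hF.rC_smul,
        map_mul, ← hF.herm, hc, smul_eq_mul, sub_eq_add_neg, ← neg_smul]
      congr 2
      ring
    rw [h2] at h1
    have h3 := FullAxis.add h1 (hb'.smul (-1))
    change FullAxis M (rC f ((c * f b a) • a))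
    convert h3 using 1
    rw [neg_one_smul]
    abel
  · rintro h0
    apply hw
    rw [h0, hF.zero_left]

/-- **PSL-1b** -/
theorem ov_su {ι : Type} [Fintype ι] [DecidableEq ι] {F : Type} [Field F] [Finite F] (hn : 4 ≤ Fintype.card ι)
    {σ : F ≃+* F} {f : (ι → F) → (ι → F) → F} (hf : IsUnitaryForm σ f) {M : Subgroup (GL ι F)}
    (hM : ∀ x : GL ι F, FixesForm {(x : Matrix ι ι F)} f → Matrix.GeneralLinearGroup.det x = 1 → x ∈ M)
    {g : GL ι F} (hgM : g ∈ M) (hg : g ∉ similarityGroup f) : specialLinear ι F ≤ M :=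
  ov_su_gen hn hf (suT_of (Herm.of_unitary hf) hM) hgM hg

end su

end Cfsg.Agent.H831.Rl
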