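import Cfsg.Agent.H851.Rl.PDefs
import Cfsg.Agent.H199.PslAut

/-!
# S3691, PSL-6 (helper831): the stabiliser of a vector in `SL_n(F)`

* `vstab_trans` : `VStab v` is transitive on the vectors outside `⟨v⟩` (`n ≥ 3`);  `sl_trans`
* `fix_of_le` : a proper overgroup of `VStab v` in `SL_n(F)` fixes `⟨v⟩`
* `line_of_vstab`, `no_hyp` : `VStab v` fixes no other line and no hyperplane
-/

set_option autoImplicit false

namespace Cfsg.Agent.H831.Rl

open Cfsg Cfsg.Geo Matrix Cfsg.Agent.H851.Rl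
open scoped MatrixGroups

section lin

variable {n : ℕ} {F : Type} [Field F]

/-- the matrix of a linear equivalence -/
theorem exists_mat (g : (Fin n → F) ≃ₗ[F] (Fin n → F)) : ∃ x : GL (Fin n) F,
    (∀ w, (x : Matrix (Fin n) (Fin n) F) *ᵥ w = g w) ∧
      (x : Matrix (Fin n) (Fin n) F).det = LinearMap.det (g : (Fin n → F) →ₗ[F] (Fin n → F)) := by
  refine ⟨⟨LinearMap.toMatrix' (g : (Fin n → F) →ₗ[F] (Fin n → F)),
    LinearMap.toMatrix' (g.symm : (Fin n → F) →ₗ[F] (Fin n → F)), ?_, ?_⟩, fun w => ?_, ?_⟩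
  · rw [← LinearMap.toMatrix'_comp, LinearEquiv.comp_coe, LinearEquiv.symm_trans_self, LinearEquiv.refl_toLinearMap,
      LinearMap.toMatrix'_id]
  · rw [← LinearMap.toMatrix'_comp, LinearEquiv.comp_coe, LinearEquiv.self_trans_symm, LinearEquiv.refl_toLinearMap,
      LinearMap.toMatrix'_id]
  · exact LinearMap.toMatrix'_mulVec _ _
  · exact LinearMap.det_toMatrix' _

theorem mem_sl_iff {x : GL (Fin n) F} : x ∈ specialLinear (Fin n) F ↔ (x : Matrix (Fin n) (Fin n) F).det = 1 := by
  constructor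
  · intro h
    exact congrArg Units.val (MonoidHom.mem_ker.mp h)
  · intro h
    show Matrix.GeneralLinearGroup.det x = 1
    exact Units.ext h

/-- one transvection -/
theorem step {v w u : Fin n → F} (h : w ∉ Submodule.span F ({v, u - w} : Set (Fin n → F))) :
    ∃ x ∈ VStab v, (x : Matrix (Fin n) (Fin n) F) *ᵥ w = u := by
  obtain ⟨f, hf, hk⟩ := Submodule.exists_le_ker_of_notMem h
  have hv : f v = 0 := hk (Submodule.subset_span (by simp))
  have ha : f (u - w) = 0 := hk (Submodule.subset_span (by simp))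
  have hf' : ((f w)⁻¹ • f) (u - w) = 0 := by rw [LinearMap.smul_apply, ha, smul_zero]
  obtain ⟨x, hx, hd⟩ := exists_mat (LinearEquiv.transvection hf')
  refine ⟨x, ⟨mem_sl_iff.2 ?_, ?_⟩, ?_⟩
  · rw [hd]
    rw [← LinearEquiv.coe_det, LinearEquiv.transvection.det_eq_one hf', Units.val_one]
  · rw [hx, LinearEquiv.transvection.apply, LinearMap.smul_apply, hv, smul_zero, zero_smul, add_zero]
  · rw [hx, LinearEquiv.transvection.apply, LinearMap.smul_apply, smul_eq_mul, inv_mul_cancel₀ hf, one_smul]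
    abel

/-- a vector outside two planes -/
theorem exists_out (hn : 3 ≤ n) (v w u : Fin n → F) : ∃ z : Fin n → F, z ∉ Submodule.span F ({v, w} : Set (Fin n → F)) ∧
    z ∉ Submodule.span F ({v, u} : Set (Fin n → F)) := by
  classical
  have key : ∀ a b : Fin n → F, ∃ z, z ∉ Submodule.span F ({a, b} : Set (Fin n → F)) := by
    intro a b
    by_contra hcon
    push Not at hcon
    have h1 : Submodule.span F ({a, b} : Set (Fin n → F)) = ⊤ := by
      rw [eq_top_iff]
      exact fun z _ => hcon z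
    have h2 := finrank_span_finset_le_card (R := F) ({a, b} : Finset (Fin n → F))
    rw [Finset.coe_insert, Finset.coe_singleton, Set.finrank, h1, finrank_top, Module.finrank_fin_fun] at h2
    have h3 := Finset.card_le_two (a := a) (b := b)
    omega
  obtain ⟨z1, h1⟩ := key v w
  obtain ⟨z2, h2⟩ := key v u
  by_cases h3 : z1 ∈ Submodule.span F ({v, u} : Set (Fin n → F))
  · by_cases h4 : z2 ∈ Submodule.span F ({v, w} : Set (Fin n → F))
    · refine ⟨z1 + z2, fun h5 => h1 ?_, fun h5 => h2 ?_⟩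
      · have := Submodule.sub_mem _ h5 h4
        rwa [add_sub_cancel_right] at this
      · have := Submodule.sub_mem _ h5 h3
        rwa [add_sub_cancel_left] at this
    · exact ⟨z2, h4, h2⟩
  · exact ⟨z1, h1, h3⟩

/-- `VStab v` is transitive on the vectors outside `⟨v⟩` -/
theorem vstab_trans (hn : 3 ≤ n) {v w u : Fin n → F} (hw : w ∉ Submodule.span F ({v} : Set (Fin n → F)))
    (hu : u ∉ Submodule.span F ({v} : Set (Fin n → F))) :
    ∃ x ∈ VStab v, (x : Matrix (Fin n) (Fin n) F) *ᵥ w = u := by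
  obtain ⟨z, hz1, hz2⟩ := exists_out hn v w u
  obtain ⟨x1, hx1, e1⟩ := step (v := v) (w := w) (u := z) (by
    intro h
    obtain ⟨a, b, hab⟩ := Submodule.mem_span_pair.1 h
    by_cases hb : b = 0
    · rw [hb, zero_smul, add_zero] at hab
      exact hw (Submodule.mem_span_singleton.2 ⟨a, hab⟩)
    · apply hz1
      rw [Submodule.mem_span_pair]
      refine ⟨-(b⁻¹ * a), b⁻¹ + 1, ?_⟩
      have h2 : z = b⁻¹ • (w - a • v) + w := by
        rw [← hab, add_sub_cancel_left, smul_smul, inv_mul_cancel₀ hb, one_smul, hab]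
        abel
      rw [h2]
      module)
  obtain ⟨x2, hx2, e2⟩ := step (v := v) (w := z) (u := u) (by
    intro h
    obtain ⟨a, b, hab⟩ := Submodule.mem_span_pair.1 h
    by_cases hb : 1 + b = 0
    · apply hu
      have hb' : b = -1 := by linear_combination hb
      rw [hb'] at hab
      rw [Submodule.mem_span_singleton]
      refine ⟨a, ?_⟩
      have h2 : a • v + (-1 : F) • (u - z) - z = 0 := by rw [hab, sub_self]
      have h3 : a • v + (-1 : F) • (u - z) - z = a • v - u := by module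
      rw [h3] at h2
      exact sub_eq_zero.1 h2
    · apply hz2
      rw [Submodule.mem_span_pair]
      refine ⟨(1 + b)⁻¹ * a, (1 + b)⁻¹ * b, ?_⟩
      have h2 : (1 + b) • z = a • v + b • u := by
        rw [add_smul, one_smul]
        nth_rewrite 1 [← hab]
        module
      have h3 : z = (1 + b)⁻¹ • (a • v + b • u) := by rw [← h2, smul_smul, inv_mul_cancel₀ hb, one_smul]
      rw [h3]
      module)
  refine ⟨x2 * x1, mul_mem hx2 hx1, ?_⟩
  rw [Units.val_mul, ← mulVec_mulVec, e1, e2]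

theorem not_mem_span_of {v w : Fin n → F} (h : ∀ c : F, w ≠ c • v) : w ∉ Submodule.span F ({v} : Set (Fin n → F)) := by
  intro h1
  obtain ⟨c, hc⟩ := Submodule.mem_span_singleton.1 h1
  exact h c hc.symm

/-- `SL_n(F)` is transitive on the nonzero vectors -/
theorem sl_trans (hn : 3 ≤ n) {v w : Fin n → F} (hv : v ≠ 0) (hw : w ≠ 0) :
    ∃ x ∈ specialLinear (Fin n) F, (x : Matrix (Fin n) (Fin n) F) *ᵥ v = w := by
  obtain ⟨z, hz, -⟩ := exists_out hn v w v
  have key : ∀ y : Fin n → F, y ≠ 0 → y ∈ Submodule.span F ({v, w} : Set (Fin n → F)) →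
      y ∉ Submodule.span F ({z} : Set (Fin n → F)) := by
    intro y hy hy2 hyz
    obtain ⟨c, rfl⟩ := Submodule.mem_span_singleton.1 hyz
    have hc : c ≠ 0 := by
      rintro rfl
      exact hy (zero_smul _ _)
    apply hz
    have := Submodule.smul_mem _ c⁻¹ hy2
    rwa [smul_smul, inv_mul_cancel₀ hc, one_smul] at this
  obtain ⟨x, hx, e⟩ := vstab_trans hn (key v hv (Submodule.subset_span (by simp)))
    (key w hw (Submodule.subset_span (by simp)))
  exact ⟨x, hx.1, e⟩

/-- a proper overgroup of `VStab v` in `SL_n(F)` fixes the line `⟨v⟩` -/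
theorem fix_of_le (hn : 3 ≤ n) {R : Subgroup (GL (Fin n) F)} {v : Fin n → F} (hv : v ≠ 0)
    (hR : R ≤ specialLinear (Fin n) F) (hs : VStab v ≤ R) (hne : R ≠ specialLinear (Fin n) F) :
    ∀ x ∈ R, ∃ c : F, (x : Matrix (Fin n) (Fin n) F) *ᵥ v = c • v := by
  by_contra hcon
  push Not at hcon
  obtain ⟨r, hr, hrv⟩ := hcon
  apply hne
  refine le_antisymm hR fun g hg => ?_
  have hrv' := not_mem_span_of hrv
  -- everything outside `⟨v⟩`
  have h1 : ∀ w : Fin n → F, w ∉ Submodule.span F ({v} : Set (Fin n → F)) →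
      ∃ x ∈ R, (x : Matrix (Fin n) (Fin n) F) *ᵥ v = w := by
    intro w hw
    obtain ⟨x, hx, e⟩ := vstab_trans hn hrv' hw
    refine ⟨x * r, mul_mem (hs hx) hr, ?_⟩
    rw [Units.val_mul, ← mulVec_mulVec, e]
  -- the same for the vectors of `⟨v⟩`
  have hinj : ∀ (x : GL (Fin n) F) (w : Fin n → F), (x : Matrix (Fin n) (Fin n) F) *ᵥ w = 0 → w = 0 := by
    intro x w h
    have h2 : ((x⁻¹ : GL (Fin n) F) : Matrix (Fin n) (Fin n) F) *ᵥ ((x : Matrix (Fin n) (Fin n) F) *ᵥ w) = 0 := by
      rw [h, mulVec_zero]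
    rwa [mulVec_mulVec, ← Units.val_mul, inv_mul_cancel, Units.val_one, one_mulVec] at h2
  have h2 : ∀ w : Fin n → F, w ≠ 0 → ∃ x ∈ R, (x : Matrix (Fin n) (Fin n) F) *ᵥ v = w := by
    intro w hw
    by_cases hwv : w ∈ Submodule.span F ({v} : Set (Fin n → F))
    · obtain ⟨c, rfl⟩ := Submodule.mem_span_singleton.1 hwv
      have hc : c ≠ 0 := by
        rintro rfl
        exact hw (zero_smul _ _)
      -- `r⁻¹ * x * r` type argument
      have h3 : (c • ((r : Matrix (Fin n) (Fin n) F) *ᵥ v)) ∉ Submodule.span F ({v} : Set (Fin n → F)) := by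
        intro h4
        apply hrv'
        have := Submodule.smul_mem _ c⁻¹ h4
        rwa [smul_smul, inv_mul_cancel₀ hc, one_smul] at this
      obtain ⟨x, hx, e⟩ := h1 _ h3
      refine ⟨r⁻¹ * x, mul_mem (inv_mem hr) hx, ?_⟩
      rw [Units.val_mul, ← mulVec_mulVec, e, mulVec_smul, mulVec_mulVec, ← Units.val_mul, inv_mul_cancel,
        Units.val_one, one_mulVec]
    · exact h1 w hwv
  have hgv : (g : Matrix (Fin n) (Fin n) F) *ᵥ v ≠ 0 := fun h => hv (hinj g v h)
  obtain ⟨x, hx, e⟩ := h2 _ hgv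
  have h3 : x⁻¹ * g ∈ VStab v := by
    refine ⟨mul_mem (inv_mem (hR hx)) hg, ?_⟩
    rw [Units.val_mul, ← mulVec_mulVec, ← e, mulVec_mulVec, ← Units.val_mul, inv_mul_cancel, Units.val_one,
      one_mulVec]
  have h4 := mul_mem hx (hs h3)
  rwa [mul_inv_cancel_left] at h4

/-- `VStab v` fixes only the line `⟨v⟩` -/
theorem line_of_vstab (hn : 3 ≤ n) {v w : Fin n → F} (hv : v ≠ 0)
    (h : ∀ x ∈ VStab v, ∃ c : F, (x : Matrix (Fin n) (Fin n) F) *ᵥ w = c • w) : ∃ c : F, w = c • v := by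
  by_contra hcon
  push Not at hcon
  have hw := not_mem_span_of hcon
  have hu : v + w ∉ Submodule.span F ({v} : Set (Fin n → F)) := by
    intro h1
    apply hw
    have := Submodule.sub_mem _ h1 (Submodule.mem_span_singleton_self v)
    rwa [add_sub_cancel_left] at this
  obtain ⟨x, hx, e⟩ := vstab_trans hn hw hu
  obtain ⟨c, hc⟩ := h x hx
  rw [e] at hc
  by_cases h1 : c = 1
  · rw [h1, one_smul] at hc
    exact hv (by simpa using hc)
  · apply hcon (c - 1)⁻¹
    have h2 : v = (c - 1) • w := by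
      rw [sub_smul, one_smul, ← hc]
      abel
    conv_rhs => rw [h2]
    rw [smul_smul, inv_mul_cancel₀ (sub_ne_zero.2 h1), one_smul]

/-- `VStab v` fixes no hyperplane -/
theorem no_hyp (hn : 3 ≤ n) {v φ : Fin n → F} (hφ : φ ≠ 0)
    (h : ∀ x ∈ VStab v, ∀ w : Fin n → F, φ ⬝ᵥ w = 0 → φ ⬝ᵥ ((x : Matrix (Fin n) (Fin n) F) *ᵥ w) = 0) : False := by
  -- the functional
  let f : (Fin n → F) →ₗ[F] F := ∑ i, φ i • LinearMap.proj i
  have hf : ∀ w, f w = φ ⬝ᵥ w := by
    intro w
    simp [f, dotProduct, LinearMap.sum_apply]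
  obtain ⟨i, hi⟩ := Function.ne_iff.1 hφ
  have hi' : φ ⬝ᵥ Pi.single i 1 ≠ 0 := by
    rw [dotProduct_single, mul_one]
    exact hi
  -- a vector of the hyperplane outside `⟨v⟩`
  obtain ⟨w, hw, hwv⟩ : ∃ w, f w = 0 ∧ w ∉ Submodule.span F ({v} : Set (Fin n → F)) := by
    by_contra hcon
    push Not at hcon
    have h1 : LinearMap.ker f ≤ Submodule.span F ({v} : Set (Fin n → F)) := fun w hw => hcon w hw
    have h2 := Submodule.finrank_mono h1
    have h3 := finrank_span_finset_le_card (R := F) ({v} : Finset (Fin n → F))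
    rw [Finset.coe_singleton, Set.finrank, Finset.card_singleton] at h3
    have h4 := f.finrank_range_add_finrank_ker
    have h5 : Module.finrank F (LinearMap.range f) ≤ 1 := by
      have := Submodule.finrank_le (LinearMap.range f)
      rwa [Module.finrank_self] at this
    rw [Module.finrank_fin_fun] at h4
    omega
  obtain ⟨u, hu, huv⟩ : ∃ u, φ ⬝ᵥ u ≠ 0 ∧ u ∉ Submodule.span F ({v} : Set (Fin n → F)) := by
    by_cases h1 : (Pi.single i 1 : Fin n → F) ∈ Submodule.span F ({v} : Set (Fin n → F))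
    · refine ⟨Pi.single i 1 + w, ?_, fun h2 => hwv ?_⟩
      · rw [dotProduct_add, ← hf w, hw, add_zero]
        exact hi'
      · have := Submodule.sub_mem _ h2 h1
        rwa [add_sub_cancel_left] at this
    · exact ⟨_, hi', h1⟩
  obtain ⟨x, hx, e⟩ := vstab_trans hn hwv huv
  apply hu
  rw [← e]
  exact h x hx w (by rw [← hf]; exact hw)

end lin

end Cfsg.Agent.H831.Rl
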