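import Cfsg.Agent.H831.Rl.HerA

/-!
# S3691, PSL-6 (helper831): semilinear lifts

* `au e` : the action of `G` on `PSL_n(F)`;  `Rep e x π a σ`, `Lf e X` : the group of the semilinear permutations of `F ^ n`
  inducing the automorphisms of the elements of `X`
* `lift_right` : if `Fac T X Y`, `VStab v ≤ pg e Y`, then every element of `Y` has a lift, which fixes `⟨v⟩`
* `semireg` : `pg e X` is semiregular on the nonzero vectors;  `no_p` : no linear element of order `p` in `Lf e X`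
* `lf_trans` : `Lf e X` is transitive on the points
-/

set_option autoImplicit false

namespace Cfsg.Agent.H831.Rl

open Cfsg Cfsg.Geo Matrix Cfsg.Agent.H454.Reg Cfsg.Agent.H851.Rl
open Cfsg.Agent.H199.PslAut
open Cfsg.Agent.ClassicalGeometry.AutPSL.Root (pr pr_surjective)
open Cfsg.Agent.ClassicalGeometry.AutPSL.Auto (cj fld itr coe_cj coe_itr)
open scoped MatrixGroups

universe u

section lift

variable {G : Type u} [Group G] {T : Subgroup G} {n : ℕ} {F : Type} [Field F]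

/-- the action of `G` on `PSL_n(F)` -/
noncomputable def au (hT : T.Normal) (e : T ≃* Matrix.ProjectiveSpecialLinearGroup (Fin n) F) :
    G →* MulAut (Matrix.ProjectiveSpecialLinearGroup (Fin n) F) :=
  (MulAut.congr e).toMonoidHom.comp (MulAut.conjNormal (H := T))

variable (hT : T.Normal) (e : T ≃* Matrix.ProjectiveSpecialLinearGroup (Fin n) F)

theorem au_apply (g : G) (t : T) : au hT e g (e t) = e ⟨g * t * g⁻¹, hT.conj_mem t t.2 g⟩ := by
  show e (MulAut.conjNormal g (e.symm (e t))) = _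
  rw [e.symm_apply_apply]
  congr 1

theorem au_coe (t : T) : au hT e (t : G) = MulAut.conj (e t) := by
  apply MulEquiv.ext
  intro x
  obtain ⟨s, rfl⟩ := e.surjective x
  rw [au_apply, MulAut.conj_apply, ← map_mul, ← map_inv, ← map_mul]
  congr 1

theorem au_inj (hc : Subgroup.centralizer (T : Set G) = ⊥) : Function.Injective (au hT e) := by
  rw [injective_iff_map_eq_one]
  intro g hg
  have : g ∈ Subgroup.centralizer (T : Set G) := by
    rw [Subgroup.mem_centralizer_iff]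
    intro t ht
    have h1 := au_apply hT e g ⟨t, ht⟩
    rw [hg, MulAut.one_apply] at h1
    have h2 : t = g * t * g⁻¹ := congrArg Subtype.val (e.injective h1)
    exact (eq_mul_inv_iff_mul_eq.1 h2)
  rwa [hc, Subgroup.mem_bot] at this

theorem mem_pg {X : Subgroup G} {s : Matrix.SpecialLinearGroup (Fin n) F} :
    (Matrix.SpecialLinearGroup.toGL s) ∈ pg e X ↔ ∃ t : T, (t : G) ∈ X ∧ e t = pr s := by
  constructor
  · rintro ⟨s', ⟨t, ht, h1⟩, h2⟩
    have h3 := H304.PslT.toGL_injective h2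
    subst h3
    exact ⟨t, ht, h1⟩
  · rintro ⟨t, ht, h1⟩
    exact ⟨s, ⟨t, ht, h1⟩, rfl⟩

theorem exists_sl {x : GL (Fin n) F} (hx : x ∈ specialLinear (Fin n) F) :
    ∃ s : Matrix.SpecialLinearGroup (Fin n) F, Matrix.SpecialLinearGroup.toGL s = x := by
  rw [← H304.PslT.range_toGL] at hx
  exact hx

theorem pg_le {X : Subgroup G} : pg e X ≤ specialLinear (Fin n) F := fun _ hx =>
  H304.PslT.mem_specialLinear_of_mem_pre hx

/-- a linear automorphism induced by an element `x` of `X` -/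
theorem mem_pg_of (hc : Subgroup.centralizer (T : Set G) = ⊥) {X : Subgroup G} {x : G} (hx : x ∈ X) {a : GL (Fin n) F}
    (ha : a ∈ specialLinear (Fin n) F) (h : au hT e x = Psi n F a) : a ∈ pg e X := by
  obtain ⟨s, rfl⟩ := exists_sl ha
  rw [mem_pg]
  refine ⟨e.symm (pr s), ?_, e.apply_symm_apply _⟩
  have h1 : au hT e ((e.symm (pr s) : T) : G) = au hT e x := by
    rw [au_coe, e.apply_symm_apply, h]
    exact (Psi_coe s).symm
  rw [au_inj hT e hc h1]
  exact hx

/-- the elements normalising `X ∩ T` -/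
theorem pg_conj {X : Subgroup G} {g : G} (hg : g ∈ X) {α : MulAut (Matrix.SpecialLinearGroup (Fin n) F)}
    (hα : ∀ s, au hT e g (pr s) = pr (α s)) {s : Matrix.SpecialLinearGroup (Fin n) F}
    (hs : Matrix.SpecialLinearGroup.toGL s ∈ pg e X) : Matrix.SpecialLinearGroup.toGL (α s) ∈ pg e X := by
  rw [mem_pg] at hs ⊢
  obtain ⟨t, ht, h1⟩ := hs
  refine ⟨⟨g * t * g⁻¹, hT.conj_mem t t.2 g⟩, X.mul_mem (X.mul_mem hg ht) (X.inv_mem hg), ?_⟩
  rw [← au_apply hT, h1, hα]

/-- `π w = a σ(w)` induces the automorphism of `x` -/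
structure Rep (x : G) (π : Equiv.Perm (Fin n → F)) (a : GL (Fin n) F) (σ : F ≃+* F) : Prop where
  au_eq : au hT e x = Psi n F a * phi n F σ
  eq : ∀ w : Fin n → F, π w = (a : Matrix (Fin n) (Fin n) F) *ᵥ (fun i => σ (w i))

theorem map_mulVec' (σ : F ≃+* F) (a : GL (Fin n) F) (w : Fin n → F) :
    (fun i => σ (((a : Matrix (Fin n) (Fin n) F) *ᵥ w) i)) =
      (mapGL σ a : Matrix (Fin n) (Fin n) F) *ᵥ (fun i => σ (w i)) := by
  funext i
  exact RingHom.map_mulVec (σ : F →+* F) _ _ i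

theorem perm_inj (a : GL (Fin n) F) : Function.Injective fun w : Fin n → F => (a : Matrix (Fin n) (Fin n) F) *ᵥ w := by
  intro u w h
  have h2 : ((a⁻¹ : GL (Fin n) F) : Matrix (Fin n) (Fin n) F) *ᵥ ((a : Matrix (Fin n) (Fin n) F) *ᵥ u) =
      ((a⁻¹ : GL (Fin n) F) : Matrix (Fin n) (Fin n) F) *ᵥ ((a : Matrix (Fin n) (Fin n) F) *ᵥ w) :=
    congrArg (((a⁻¹ : GL (Fin n) F) : Matrix (Fin n) (Fin n) F) *ᵥ ·) h
  rwa [mulVec_mulVec, mulVec_mulVec, ← Units.val_mul, inv_mul_cancel, Units.val_one, one_mulVec, one_mulVec] at h2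

variable {hT e}

theorem Rep.one : Rep hT e 1 1 1 1 :=
  ⟨by rw [map_one, map_one, map_one, mul_one], fun w => by
    rw [Units.val_one, one_mulVec]; rfl⟩

theorem Rep.mul {x y : G} {π ρ : Equiv.Perm (Fin n → F)} {a b : GL (Fin n) F} {σ τ : F ≃+* F}
    (h : Rep hT e x π a σ) (k : Rep hT e y ρ b τ) : Rep hT e (x * y) (π * ρ) (a * mapGL σ b) (σ * τ) := by
  refine ⟨?_, fun w => ?_⟩
  · rw [map_mul, h.au_eq, k.au_eq, map_mul, map_mul, mul_assoc, mul_assoc, ← mul_assoc (phi n F σ), phi_mul_Psi, mul_assoc]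
  · rw [Equiv.Perm.mul_apply, k.eq, h.eq, map_mulVec', mulVec_mulVec, ← Units.val_mul]
    rfl

theorem Rep.inv {x : G} {π : Equiv.Perm (Fin n → F)} {a : GL (Fin n) F} {σ : F ≃+* F}
    (h : Rep hT e x π a σ) : Rep hT e x⁻¹ π⁻¹ (mapGL σ⁻¹ a⁻¹) σ⁻¹ := by
  refine ⟨?_, fun w => ?_⟩
  · rw [map_inv, h.au_eq, _root_.mul_inv_rev, ← map_inv, ← map_inv, phi_mul_Psi]
  · rw [Equiv.Perm.inv_eq_iff_eq, h.eq, map_mulVec', mulVec_mulVec, ← Units.val_mul]
    have h1 : a * mapGL σ (mapGL σ⁻¹ a⁻¹) = 1 := by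
      have h2 : mapGL σ (mapGL σ⁻¹ a⁻¹) = a⁻¹ := by
        apply Units.ext
        rw [coe_mapGL, coe_mapGL]
        ext i j
        exact σ.apply_symm_apply _
      rw [h2, mul_inv_cancel]
    rw [h1, Units.val_one, one_mulVec]
    funext i
    exact (σ.apply_symm_apply _).symm

theorem Rep.add {x : G} {π : Equiv.Perm (Fin n → F)} {a : GL (Fin n) F} {σ : F ≃+* F}
    (h : Rep hT e x π a σ) (u w : Fin n → F) : π (u + w) = π u + π w := by
  rw [h.eq, h.eq, h.eq, ← mulVec_add]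
  congr 1
  funext i
  exact map_add σ _ _

theorem Rep.smul {x : G} {π : Equiv.Perm (Fin n → F)} {a : GL (Fin n) F} {σ : F ≃+* F}
    (h : Rep hT e x π a σ) (c : F) (w : Fin n → F) : π (c • w) = σ c • π w := by
  rw [h.eq, h.eq, ← mulVec_smul]
  congr 1
  funext i
  exact map_mul σ _ _

/-- the element is determined by its lift -/
theorem Rep.unique (hc : Subgroup.centralizer (T : Set G) = ⊥) (hn : 0 < n) {x y : G}
    {π : Equiv.Perm (Fin n → F)} {a b : GL (Fin n) F} {σ τ : F ≃+* F}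
    (h : Rep hT e x π a σ) (k : Rep hT e y π b τ) : x = y ∧ a = b ∧ σ = τ := by
  have hne : (Pi.single ⟨0, hn⟩ 1 : Fin n → F) ≠ 0 := by
    intro h0
    have := congrFun h0 ⟨0, hn⟩
    rw [Pi.single_eq_same, Pi.zero_apply] at this
    exact one_ne_zero this
  have hπ : π (Pi.single ⟨0, hn⟩ 1) ≠ 0 := by
    rw [h.eq]
    intro h0
    apply hne
    have h1 := perm_inj a (a₁ := fun i => σ ((Pi.single ⟨0, hn⟩ 1 : Fin n → F) i)) (a₂ := 0) (by
      show _ = (a : Matrix (Fin n) (Fin n) F) *ᵥ 0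
      rw [mulVec_zero]; exact h0)
    funext i
    have h2 := congrFun h1 i
    exact (map_eq_zero_iff σ σ.injective).1 h2
  have hσ : σ = τ := by
    apply RingEquiv.ext
    intro c
    have h1 := h.smul c (Pi.single ⟨0, hn⟩ 1)
    rw [k.smul] at h1
    exact (smul_left_injective F hπ h1).symm
  subst hσ
  have hab : a = b := by
    apply Units.ext
    ext i j
    have h1 := h.eq (Pi.single j 1)
    rw [k.eq] at h1
    have h2 : (fun i => σ ((Pi.single j 1 : Fin n → F) i)) = Pi.single j 1 := by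
      funext l
      by_cases hl : l = j
      · subst hl
        rw [Pi.single_eq_same, map_one]
      · rw [Pi.single_eq_of_ne hl, map_zero]
    rw [h2, mulVec_single_one, mulVec_single_one] at h1
    exact (congrFun h1 i).symm
  subst hab
  refine ⟨au_inj hT e hc ?_, rfl, rfl⟩
  rw [h.au_eq, k.au_eq]

/-- the lift is determined up to scalars -/
theorem Rep.unique' (hn : 2 ≤ n) {x : G}
    {π ρ : Equiv.Perm (Fin n → F)} {a b : GL (Fin n) F} {σ τ : F ≃+* F}
    (h : Rep hT e x π a σ) (k : Rep hT e x ρ b τ) : σ = τ ∧ ∃ c : F, c ≠ 0 ∧ ∀ w, π w = c • ρ w := by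
  have h1 : Psi n F (b⁻¹ * a) * phi n F (σ * τ⁻¹) = 1 := by
    have h2 := h.au_eq
    rw [k.au_eq] at h2
    rw [map_mul, map_mul, map_inv, map_inv]
    have h3 : (Psi n F b)⁻¹ * Psi n F a * (phi n F σ * (phi n F τ)⁻¹) =
        (Psi n F b)⁻¹ * (Psi n F a * phi n F σ) * (phi n F τ)⁻¹ := by group
    rw [h3, ← h2]
    group
  obtain ⟨⟨u, hu⟩, h3⟩ := Psi_phi_eq (n := n) (F := F) hn (g := b⁻¹ * a) (σ := σ * τ⁻¹) (τ := 1) (by rw [h1, map_one])
  have h4 : σ = τ := by
    rw [mul_inv_eq_one] at h3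
    exact h3
  refine ⟨h4, (u : F), u.ne_zero, fun w => ?_⟩
  have h5 : a = b * scal n F u := by rw [← hu, mul_inv_cancel_left]
  rw [h.eq, k.eq, h4, h5, Units.val_mul, ← mulVec_mulVec, coe_scal, ← mulVec_smul]
  congr 1
  rw [Matrix.scalar_apply, ← Matrix.smul_one_eq_diagonal, smul_mulVec, one_mulVec]

/-- scalar lifts of `1` -/
theorem Rep.scal (u : Fˣ) : ∃ π : Equiv.Perm (Fin n → F), Rep hT e 1 π (scal n F u) 1 ∧
    ∀ w, π w = (u : F) • w := by
  refine ⟨⟨fun w => (u : F) • w, fun w => (u : F)⁻¹ • w, fun w => ?_, fun w => ?_⟩, ⟨?_, fun w => ?_⟩, fun w => rfl⟩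
  · show (u : F)⁻¹ • ((u : F) • w) = w
    rw [smul_smul, inv_mul_cancel₀ u.ne_zero, one_smul]
  · show (u : F) • ((u : F)⁻¹ • w) = w
    rw [smul_smul, mul_inv_cancel₀ u.ne_zero, one_smul]
  · rw [map_one, Psi_scal, map_one, mul_one]
  · show (u : F) • w = _
    rw [coe_scal, Matrix.scalar_apply, ← Matrix.smul_one_eq_diagonal, smul_mulVec, one_mulVec]
    rfl

variable (hT e)

/-- every element inducing a semilinear automorphism has a lift -/
theorem exists_rep {x : G} {a : GL (Fin n) F} {σ : F ≃+* F} (h : au hT e x = Psi n F a * phi n F σ) :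
    ∃ π, Rep hT e x π a σ := by
  refine ⟨⟨fun w => (a : Matrix (Fin n) (Fin n) F) *ᵥ (fun i => σ (w i)),
    fun w => fun i => σ.symm ((((a⁻¹ : GL (Fin n) F) : Matrix (Fin n) (Fin n) F) *ᵥ w) i), fun w => ?_, fun w => ?_⟩,
    h, fun w => rfl⟩
  · funext i
    show σ.symm ((((a⁻¹ : GL (Fin n) F) : Matrix (Fin n) (Fin n) F) *ᵥ
      ((a : Matrix (Fin n) (Fin n) F) *ᵥ (fun i => σ (w i)))) i) = w i
    rw [mulVec_mulVec, ← Units.val_mul, inv_mul_cancel, Units.val_one, one_mulVec, σ.symm_apply_apply]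
  · show (a : Matrix (Fin n) (Fin n) F) *ᵥ (fun i => σ (σ.symm
      ((((a⁻¹ : GL (Fin n) F) : Matrix (Fin n) (Fin n) F) *ᵥ w) i))) = w
    simp only [σ.apply_symm_apply]
    rw [mulVec_mulVec, ← Units.val_mul, mul_inv_cancel, Units.val_one, one_mulVec]

/-- the group of lifts of the elements of `X` -/
def Lf (X : Subgroup G) : Subgroup (Equiv.Perm (Fin n → F)) where
  carrier := {π | ∃ x ∈ X, ∃ a σ, Rep hT e x π a σ}
  one_mem' := ⟨1, X.one_mem, 1, 1, Rep.one⟩
  mul_mem' := by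
    rintro π ρ ⟨x, hx, a, σ, h⟩ ⟨y, hy, b, τ, k⟩
    exact ⟨x * y, X.mul_mem hx hy, _, _, h.mul k⟩
  inv_mem' := by
    rintro π ⟨x, hx, a, σ, h⟩
    exact ⟨x⁻¹, X.inv_mem hx, _, _, h.inv⟩

end lift

section fac

variable {G : Type u} [Group G] [Finite G] {T : Subgroup G} {n : ℕ} {F : Type} [Field F] [Fintype F]
  {e : T ≃* Matrix.ProjectiveSpecialLinearGroup (Fin n) F} {X Y : Subgroup G} {v : Fin n → F}

omit [Finite G] [Fintype F] in
theorem ne_sl (h : ¬ T ≤ Y) : pg e Y ≠ specialLinear (Fin n) F := by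
  intro h1
  apply h
  intro t ht
  obtain ⟨s, hs⟩ := pr_surjective (e ⟨t, ht⟩)
  have h2 : Matrix.SpecialLinearGroup.toGL s ∈ pg e Y := by
    rw [h1, ← H304.PslT.range_toGL]
    exact ⟨s, rfl⟩
  obtain ⟨t', ht', h3⟩ := (mem_pg e).1 h2
  have h4 : t' = ⟨t, ht⟩ := e.injective (h3.trans hs)
  rw [h4] at ht'
  exact ht'

omit [Finite G] in
/-- the lifts of the elements of `Y` -/
theorem lift_right (hn : 3 ≤ n) (hv : v ≠ 0) (hT : T.Normal) (hnot : ¬ T ≤ Y) (hs : VStab v ≤ pg e Y) {y : G}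
    (hy : y ∈ Y) : ∃ π a σ, Rep hT e y π a σ ∧ ∃ c : F, c ≠ 0 ∧ π v = c • v := by
  have hfix := fix_of_le hn hv (pg_le e) hs (ne_sl hnot)
  rcases exists_form (by omega : 2 ≤ n) (au hT e y) with ⟨a, σ, h1⟩ | ⟨-, a, σ, h1⟩
  · obtain ⟨π, hπ⟩ := exists_rep hT e h1
    refine ⟨π, a, σ, hπ, ?_⟩
    set w := π.symm v with hw
    have hπw : π w = v := π.apply_symm_apply v
    obtain ⟨c, hc⟩ := line_of_vstab hn hv (w := w) (by
      intro x hx
      obtain ⟨s, rfl⟩ := exists_sl hx.1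
      have h2 := pg_conj hT e hy (α := cj a * fld σ) (s := s) (fun s' => by
        rw [h1]; rfl) (hs hx)
      obtain ⟨c, hc⟩ := hfix _ h2
      refine ⟨σ.symm c, π.injective ?_⟩
      rw [hπ.smul, σ.apply_symm_apply, hπw, ← hc, hπ.eq, map_mulVec', mulVec_mulVec]
      have h3 : (Matrix.SpecialLinearGroup.toGL ((cj a * fld σ : MulAut (Matrix.SpecialLinearGroup (Fin n) F)) s) : Matrix (Fin n) (Fin n) F) =
          ((a * mapGL σ (Matrix.SpecialLinearGroup.toGL s) * a⁻¹ : GL (Fin n) F) : Matrix (Fin n) (Fin n) F) := rfl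
      rw [h3, ← Units.val_mul]
      have h4 : v = (a : Matrix (Fin n) (Fin n) F) *ᵥ (fun i => σ (w i)) := by rw [← hπ.eq, hπw]
      conv_rhs => rw [h4]
      rw [mulVec_mulVec, ← Units.val_mul, inv_mul_cancel_right])
    have h5 : v = σ c • π v := by rw [← hπ.smul, ← hc, hπw]
    have h6 : σ c ≠ 0 := by
      intro h0
      rw [h0, zero_smul] at h5
      exact hv h5
    refine ⟨(σ c)⁻¹, inv_ne_zero h6, ?_⟩
    conv_rhs => rw [h5]
    rw [smul_smul, inv_mul_cancel₀ h6, one_smul]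
  · exfalso
    set w : Fin n → F := fun i => σ.symm ((((a⁻¹ : GL (Fin n) F) : Matrix (Fin n) (Fin n) F) *ᵥ v) i) with hw
    have hσw : (fun i => σ (w i)) = ((a⁻¹ : GL (Fin n) F) : Matrix (Fin n) (Fin n) F) *ᵥ v := by
      funext i
      exact σ.apply_symm_apply _
    clear_value w
    have hw0 : w ≠ 0 := by
      intro h0
      apply hv
      apply perm_inj a⁻¹
      show ((a⁻¹ : GL (Fin n) F) : Matrix (Fin n) (Fin n) F) *ᵥ v = ((a⁻¹ : GL (Fin n) F) : Matrix (Fin n) (Fin n) F) *ᵥ 0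
      rw [mulVec_zero, ← hσw, h0]
      funext i
      exact map_zero σ
    refine no_hyp hn (v := v) (φ := w) hw0 ?_
    intro x hx u hu
    obtain ⟨s, hs'⟩ := exists_sl (inv_mem hx).1
    have h2 := pg_conj hT e hy (α := cj a * fld σ * itr) (s := s) (fun s' => by
      rw [h1]; rfl) (by rw [hs']; exact hs (inv_mem hx))
    obtain ⟨c, hc⟩ := hfix _ h2
    have h3 : (Matrix.SpecialLinearGroup.toGL ((cj a * fld σ * itr : MulAut (Matrix.SpecialLinearGroup (Fin n) F)) s) :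
        Matrix (Fin n) (Fin n) F) =
        ((a * mapGL σ (itGL (Matrix.SpecialLinearGroup.toGL s)) * a⁻¹ : GL (Fin n) F) : Matrix (Fin n) (Fin n) F) := by
      show ((a : Matrix (Fin n) (Fin n) F) * ((itr s : Matrix (Fin n) (Fin n) F)).map (σ : F →+* F) *
        ((a⁻¹ : GL (Fin n) F) : Matrix (Fin n) (Fin n) F)) = _
      rw [coe_itr, Units.val_mul, Units.val_mul, coe_mapGL, coe_itGL]
      rfl
    rw [h3, hs', Units.val_mul, ← mulVec_mulVec, ← hσw, Units.val_mul, ← mulVec_mulVec, ← map_mulVec'] at hc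
    have h4 : (fun i => σ (((itGL x⁻¹ : GL (Fin n) F) : Matrix (Fin n) (Fin n) F).mulVec w i)) = c • (fun i => σ (w i)) := by
      apply perm_inj a
      show (a : Matrix (Fin n) (Fin n) F) *ᵥ _ = (a : Matrix (Fin n) (Fin n) F) *ᵥ (c • _)
      rw [mulVec_smul, hσw, mulVec_mulVec, ← Units.val_mul, mul_inv_cancel, Units.val_one, one_mulVec]
      exact hc
    have h5 : ((itGL x⁻¹ : GL (Fin n) F) : Matrix (Fin n) (Fin n) F) *ᵥ w = σ.symm c • w := by
      funext i
      apply σ.injective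
      have := congrFun h4 i
      rw [this]
      show c * σ (w i) = σ (σ.symm c * w i)
      rw [map_mul, σ.apply_symm_apply]
    rw [coe_itGL, inv_inv, mulVec_transpose] at h5
    rw [dotProduct_mulVec, h5, smul_dotProduct, hu, smul_zero]

omit [Fintype F] in
/-- `pg e X` is semiregular on the nonzero vectors -/
theorem semireg (h : Fac T X Y) (hn : 3 ≤ n) (hs : VStab v ≤ pg e Y) (hv : v ≠ 0) {x : GL (Fin n) F}
    (hx : x ∈ pg e X) {w : Fin n → F} (hw : w ≠ 0) (hxw : (x : Matrix (Fin n) (Fin n) F) *ᵥ w = w) : x = 1 := by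
  obtain ⟨g, hg, hgw⟩ := sl_trans hn hw hv
  have hgi : ((g⁻¹ : GL (Fin n) F) : Matrix (Fin n) (Fin n) F) *ᵥ v = w := by
    rw [← hgw, mulVec_mulVec, ← Units.val_mul, inv_mul_cancel, Units.val_one, one_mulVec]
  obtain ⟨s, rfl⟩ := exists_sl (pg_le e hx)
  obtain ⟨r, rfl⟩ := exists_sl hg
  have h1 : Matrix.SpecialLinearGroup.toGL r * Matrix.SpecialLinearGroup.toGL s * (Matrix.SpecialLinearGroup.toGL r)⁻¹ ∈
      VStab v := by
    refine ⟨mul_mem (mul_mem hg (pg_le e hx)) (inv_mem hg), ?_⟩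
    rw [Units.val_mul, ← mulVec_mulVec, hgi, Units.val_mul, ← mulVec_mulVec, hxw, hgw]
  rw [← map_inv, ← map_mul, ← map_mul] at h1
  obtain ⟨t, ht, h2⟩ := (mem_pg e).1 hx
  obtain ⟨t', ht', h3⟩ := (mem_pg e).1 (hs h1)
  obtain ⟨k, hk⟩ := e.surjective (pr r)
  have h4 : t' = k * t * k⁻¹ := by
    apply e.injective
    rw [h3, map_mul, map_mul, map_inv, map_mul, map_mul, map_inv, h2, hk]
  have h5 : (t : G) = 1 := h.not_conj ht (k : G) (by
    have : ((k * t * k⁻¹ : T) : G) = (k : G) * t * (k : G)⁻¹ := rfl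
    rw [← this, ← h4]
    exact ht')
  have h6 : pr s = 1 := by
    rw [← h2, show t = 1 from Subtype.ext h5, map_one]
  have h7 : s ∈ Subgroup.center (Matrix.SpecialLinearGroup (Fin n) F) := by
    rw [← QuotientGroup.eq_one_iff]
    exact h6
  rw [Matrix.SpecialLinearGroup.mem_center_iff] at h7
  obtain ⟨c, -, hc⟩ := h7
  have h8 : (c : F) • w = w := by
    rw [← hxw]
    conv_rhs => rw [show ((Matrix.SpecialLinearGroup.toGL s : GL (Fin n) F) : Matrix (Fin n) (Fin n) F) =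
      (s : Matrix (Fin n) (Fin n) F) from rfl, ← hc]
    rw [hxw, Matrix.scalar_apply, ← Matrix.smul_one_eq_diagonal, smul_mulVec, one_mulVec]
  have h9 : c = 1 := by
    have h10 : (c - 1) • w = 0 := by rw [sub_smul, one_smul, h8, sub_self]
    rcases smul_eq_zero.1 h10 with h11 | h11
    · exact sub_eq_zero.1 h11
    · exact absurd h11 hw
  apply Units.ext
  rw [show ((Matrix.SpecialLinearGroup.toGL s : GL (Fin n) F) : Matrix (Fin n) (Fin n) F) =
      (s : Matrix (Fin n) (Fin n) F) from rfl, ← hc, h9, map_one, Units.val_one]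

/-- `Lf e X` is transitive on the points -/
theorem lf_trans (h : Fac T X Y) (hn : 3 ≤ n) (hs : VStab v ≤ pg e Y) (hv : v ≠ 0) {u w : Fin n → F} (hu : u ≠ 0)
    (hw : w ≠ 0) : ∃ π ∈ Lf h.normal e X, ∃ c : F, c ≠ 0 ∧ π u = c • w := by
  have key : ∀ w : Fin n → F, w ≠ 0 → ∃ π ∈ Lf h.normal e X, ∃ c : F, c ≠ 0 ∧ π v = c • w := by
    intro w hw
    obtain ⟨g, hg, hgw⟩ := sl_trans hn hv hw
    obtain ⟨s, rfl⟩ := exists_sl hg
    obtain ⟨t, ht⟩ := e.surjective (pr s)
    obtain ⟨x, hx, y, hy, hxy⟩ := h.exists_mul (t : G)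
    obtain ⟨ρ, b, τ, hρ, c, hc0, hc⟩ := lift_right hn hv h.normal h.not_le_right hs (inv_mem hy)
    have h1 : au h.normal e (t : G) = Psi n F (Matrix.SpecialLinearGroup.toGL s) * phi n F 1 := by
      rw [au_coe, ht, map_one, mul_one]
      exact (Psi_coe s).symm
    obtain ⟨π, hπ⟩ := exists_rep h.normal e h1
    have h2 := hπ.mul hρ
    refine ⟨π * ρ, ⟨t * y⁻¹, ?_, _, _, h2⟩, c, hc0, ?_⟩
    · rw [← hxy, mul_inv_cancel_right]
      exact hx
    · rw [Equiv.Perm.mul_apply, hc, hπ.smul, hπ.eq]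
      show c • _ = c • w
      rw [← hgw]
      rfl
  obtain ⟨π, hπ, c, hc0, hc⟩ := key u hu
  obtain ⟨ρ, hρ, d, hd0, hd⟩ := key w hw
  obtain ⟨x, hx, a, σ, hr⟩ := inv_mem hπ
  refine ⟨ρ * π⁻¹, mul_mem hρ (inv_mem hπ), ?_⟩
  have h1 : π⁻¹ u = (σ c)⁻¹ • v := by
    have h2 : π⁻¹ (c • u) = σ c • π⁻¹ u := hr.smul c u
    rw [← hc, show π⁻¹ (π v) = v from π.symm_apply_apply v] at h2
    have h3 : σ c ≠ 0 := (map_ne_zero_iff σ σ.injective).2 hc0
    rw [h2, smul_smul, inv_mul_cancel₀ h3, one_smul]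
  obtain ⟨y, hy, b, τ, hr'⟩ := hρ
  refine ⟨τ ((σ c)⁻¹) * d, mul_ne_zero ?_ hd0, ?_⟩
  · rw [Ne, map_eq_zero_iff τ τ.injective, inv_eq_zero, map_eq_zero_iff σ σ.injective]
    exact hc0
  · rw [Equiv.Perm.mul_apply, h1, hr'.smul, hd, smul_smul]

omit [Fintype F] in
/-- a linear element of order `p` of `Lf e X` is trivial -/
theorem no_p (h : Fac T X Y) (hn : 3 ≤ n) (hs : VStab v ≤ pg e Y) (hv : v ≠ 0) {p : ℕ} [Fact p.Prime] [CharP F p]
    {π : Equiv.Perm (Fin n → F)} (hπ : π ∈ Lf h.normal e X) (hlin : ∀ (c : F) (w : Fin n → F), π (c • w) = c • π w)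
    (hp : π ^ p = 1) : π = 1 := by
  obtain ⟨x, hx, a, σ, hr⟩ := hπ
  have hπv : π v ≠ 0 := by
    have h0 : π 0 = 0 := by
      have := hlin 0 v
      rwa [zero_smul, zero_smul] at this
    intro h1
    exact hv (π.injective (h1.trans h0.symm))
  have hσ : σ = 1 := by
    apply RingEquiv.ext
    intro c
    have h1 := hr.smul c v
    rw [hlin] at h1
    exact (smul_left_injective F hπv h1).symm
  subst hσ
  have heq : ∀ w, π w = (a : Matrix (Fin n) (Fin n) F) *ᵥ w := hr.eq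
  have hpow : ∀ (k : ℕ) (w : Fin n → F), (π ^ k) w = ((a : Matrix (Fin n) (Fin n) F) ^ k) *ᵥ w := by
    intro k
    induction k with
    | zero => intro w; rw [pow_zero, pow_zero, one_mulVec]; rfl
    | succ k ih => intro w; rw [pow_succ, Equiv.Perm.mul_apply, heq, ih, mulVec_mulVec, ← pow_succ]
  have hap : (a : Matrix (Fin n) (Fin n) F) ^ p = 1 := by
    ext i j
    have h1 := hpow p (Pi.single j 1)
    rw [hp, Equiv.Perm.one_apply, mulVec_single_one] at h1
    have h2 := congrFun h1 i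
    rw [Matrix.one_apply]
    have h3 : ((a : Matrix (Fin n) (Fin n) F) ^ p).col j i = ((a : Matrix (Fin n) (Fin n) F) ^ p) i j := rfl
    rw [h3] at h2
    rw [← h2, Pi.single_apply]
  have hdet : (a : Matrix (Fin n) (Fin n) F).det = 1 := by
    have h1 : (a : Matrix (Fin n) (Fin n) F).det ^ p = 1 := by rw [← det_pow, hap, det_one]
    have h2 : ((a : Matrix (Fin n) (Fin n) F).det - 1) ^ p = 0 := by rw [sub_pow_char, h1, one_pow, sub_self]
    exact sub_eq_zero.1 (pow_eq_zero_iff (Fact.out : p.Prime).ne_zero |>.1 h2)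
  have hmem : a ∈ pg e X := by
    refine mem_pg_of h.normal e h.cent hx (mem_sl_iff.2 hdet) ?_
    rw [hr.au_eq, map_one, mul_one]
  have hne : Nonempty (Fin n) := ⟨⟨0, by omega⟩⟩
  have hd0 : ((a : Matrix (Fin n) (Fin n) F) - 1).det = 0 := by
    have : CharP (Matrix (Fin n) (Fin n) F) p := Matrix.charP (n := Fin n) (R := F) p
    have h1 : ((a : Matrix (Fin n) (Fin n) F) - 1) ^ p = 0 := by
      rw [sub_pow_char_of_commute p (Commute.one_right _), hap, one_pow, sub_self]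
    have h2 : ((a : Matrix (Fin n) (Fin n) F) - 1).det ^ p = 0 := by rw [← det_pow, h1, det_zero]
    exact pow_eq_zero_iff (Fact.out : p.Prime).ne_zero |>.1 h2
  obtain ⟨w, hw, hw1⟩ := Matrix.exists_mulVec_eq_zero_iff.2 hd0
  rw [sub_mulVec, one_mulVec, sub_eq_zero] at hw1
  have h1 := semireg h hn hs hv hmem hw hw1
  apply Equiv.ext
  intro w
  rw [heq, h1, Units.val_one, one_mulVec]
  rfl

end fac

end Cfsg.Agent.H831.Rl
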