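import Cfsg.Agent.H831.Rl.HerD
import Cfsg.Agent.H72.Rg.SemiBound

/-!
# S3691, PSL-6b (helper831): `VStab v ≤ pg e B` is impossible
-/

set_option autoImplicit false

namespace Cfsg.Agent.H831.Rl

open Cfsg Cfsg.Geo Matrix Cfsg.Agent.H454.Reg Cfsg.Agent.H851.Rl
open Cfsg.Agent.H199.PslAut
open Cfsg.Agent.H728.DghpNum (Ppd)
open Cfsg.Agent.ClassicalGeometry.AutPSL.Root (pr pr_surjective)
open scoped MatrixGroups

universe u

section algebra

/-- an isometry of a nondegenerate bilinear form has determinant `± 1` -/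
theorem det_mul_det {F V : Type} [Field F] [AddCommGroup V] [Module F V] [FiniteDimensional F V]
    (B : LinearMap.BilinForm F V) (hB : B.Nondegenerate) (f : V →ₗ[F] V) (h : ∀ x y, B (f x) (f y) = B x y) :
    LinearMap.det f * LinearMap.det f = 1 := by
  classical
  let b := Module.finBasis F V
  have h1 : B.comp f f = B := by
    ext x y
    exact h x y
  have h2 := LinearMap.BilinForm.toMatrix_comp b b B f f
  rw [h1] at h2
  have h3 := congrArg Matrix.det h2
  rw [det_mul, det_mul, det_transpose, LinearMap.det_toMatrix] at h3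
  have h4 : (LinearMap.BilinForm.toMatrix b B).det ≠ 0 := (LinearMap.BilinForm.nondegenerate_iff_det_ne_zero b).1 hB
  apply mul_right_cancel₀ h4
  rw [one_mul]
  conv_rhs => rw [h3]
  ring

/-- the square of the Frobenius has determinant `1` -/
theorem det_frob (F K : Type) [Field F] [Fintype F] [Field K] [Fintype K] [Algebra F K] :
    LinearMap.det ((FiniteField.frobeniusAlgEquivOfAlgebraic F K).toLinearMap) *
      LinearMap.det ((FiniteField.frobeniusAlgEquivOfAlgebraic F K).toLinearMap) = 1 := by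
  have : Module.Finite F K := Module.Finite.of_finite
  refine det_mul_det (Algebra.traceForm F K) (traceForm_nondegenerate F K) _ fun x y => ?_
  rw [Algebra.traceForm_apply, Algebra.traceForm_apply]
  show Algebra.trace F K (FiniteField.frobeniusAlgEquivOfAlgebraic F K x *
    FiniteField.frobeniusAlgEquivOfAlgebraic F K y) = _
  rw [← map_mul]
  exact Algebra.trace_eq_of_algEquiv (FiniteField.frobeniusAlgEquivOfAlgebraic F K) (x * y)

end algebra

section fac

variable {G : Type u} [Group G] [Finite G] {T : Subgroup G} {n : ℕ} {F : Type} [Field F] [Fintype F]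
  {e : T ≃* Matrix.ProjectiveSpecialLinearGroup (Fin n) F} {X Y : Subgroup G} {v : Fin n → F}
  {F₁ : Type} [Field F₁] [Fintype F₁] {e₁ : (Fin n → F) ≃+ F₁} {p f r : ℕ}

omit [Finite G] [Fintype F] in
/-- powers of lifts -/
theorem Rep.pow {hT : T.Normal} {x : G} {π : Equiv.Perm (Fin n → F)} {a : GL (Fin n) F}
    {σ : F ≃+* F} (h : Rep hT e x π a σ) (k : ℕ) : ∃ b, Rep hT e (x ^ k) (π ^ k) b (σ ^ k) := by
  induction k with
  | zero => exact ⟨1, by rw [pow_zero, pow_zero, pow_zero]; exact Rep.one⟩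
  | succ k ih =>
    obtain ⟨b, hb⟩ := ih
    rw [pow_succ, pow_succ, pow_succ]
    exact ⟨_, hb.mul h⟩

omit [Fintype F] [Fintype F₁] in
theorem SR.pow {π : Equiv.Perm (Fin n → F)} {c : F₁} {τ : F₁ ≃+* F₁} (h : SR e₁ π c τ) (k : ℕ) :
    ∃ d, SR e₁ (π ^ k) d (τ ^ k) := by
  induction k with
  | zero => exact ⟨1, by rw [pow_zero, pow_zero]; exact SR.one⟩
  | succ k ih =>
    obtain ⟨b, hb⟩ := ih
    rw [pow_succ, pow_succ]
    exact ⟨_, hb.mul h⟩

omit [Fintype F] [Fintype F₁] in
theorem SR.pow' {π : Equiv.Perm (Fin n → F)} {c : F₁} (h : SR e₁ π c 1) (k : ℕ) :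
    SR e₁ (π ^ k) (c ^ k) 1 := by
  induction k with
  | zero => rw [pow_zero, pow_zero]; exact SR.one
  | succ k ih =>
    rw [pow_succ, pow_succ]
    have h3 : SR e₁ (π ^ k * π) (c ^ k * c) (1 * 1) := ih.mul h
    rwa [one_mul] at h3

/-- a field automorphism of order dividing a large prime is trivial -/
theorem aut_eq_one {K : Type} [Field K] [Fintype K] {p m N r : ℕ} [Fact p.Prime] (hK : Fintype.card K = p ^ m)
    (hP : Ppd p N r) (hm : m ≤ N) {τ : K ≃+* K} (h : τ ^ r = 1) : τ = 1 := by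
  have h1 : orderOf τ ∣ r := orderOf_dvd_of_pow_eq_one h
  rcases (Nat.dvd_prime hP.prime).1 h1 with h2 | h2
  · exact orderOf_eq_one_iff.1 h2
  · exfalso
    have h3 := Cfsg.Agent.H72.Rg.card_ringEquiv_le (F := K) (n := m) (by rw [Nat.card_eq_fintype_card, hK])
    have hfin : Finite (K ≃+* K) := Finite.of_injective (fun σ : K ≃+* K => (σ : K → K)) DFunLike.coe_injective
    have h4 := Nat.le_of_dvd Nat.card_pos (orderOf_dvd_natCard τ)
    have := hP.lt
    omega

omit [Finite G] in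
/-- elements of order `r` of `Lf e X` -/
theorem of_pow_r (hT : T.Normal) (hc : Subgroup.centralizer (T : Set G) = ⊥) [Fact p.Prime] (hn : 3 ≤ n)
    (hF : Fintype.card F = p ^ f) (hf : 0 < f)
    (hF₁ : Fintype.card F₁ = p ^ (n * f)) (hP : Ppd p (n * f) r)
    (hsl : ∀ π ∈ Lf hT e X, ∃ (c : F₁) (σ : F₁ ≃+* F₁), ∀ w, e₁ (π w) = c * σ (e₁ w))
    {π : Equiv.Perm (Fin n → F)} (hπ : π ∈ Lf hT e X) (hr : π ^ r = 1) :
    ∃ a ∈ pg e X, (∀ w, π w = (a : Matrix (Fin n) (Fin n) F) *ᵥ w) ∧ ∃ c : F₁, c ^ r = 1 ∧ SR e₁ π c 1 := by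
  obtain ⟨c, τ, hs⟩ := hsl π hπ
  have hs' : SR e₁ π c τ := hs
  obtain ⟨x, hx, a, σ, hrep⟩ := hπ
  have hτ : τ = 1 := by
    refine aut_eq_one hF₁ hP le_rfl ?_
    obtain ⟨d, hd⟩ := hs'.pow r
    rw [hr] at hd
    exact (hd.unique SR.one).2
  have hσ : σ = 1 := by
    refine aut_eq_one hF hP (by nlinarith) ?_
    obtain ⟨b, hb⟩ := hrep.pow r
    rw [hr] at hb
    exact (hb.unique hc (by omega) Rep.one).2.2
  subst hτ hσ
  have heq : ∀ w, π w = (a : Matrix (Fin n) (Fin n) F) *ᵥ w := hrep.eq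
  refine ⟨a, ?_, heq, c, ?_, hs'⟩
  · have hpow : ∀ (k : ℕ) (w : Fin n → F), (π ^ k) w = ((a : Matrix (Fin n) (Fin n) F) ^ k) *ᵥ w := by
      intro k
      induction k with
      | zero => intro w; rw [pow_zero, pow_zero, one_mulVec]; rfl
      | succ k ih => intro w; rw [pow_succ, Equiv.Perm.mul_apply, heq, ih, mulVec_mulVec, ← pow_succ]
    have har : (a : Matrix (Fin n) (Fin n) F) ^ r = 1 := by
      ext i j
      have h1 := hpow r (Pi.single j 1)
      rw [hr, Equiv.Perm.one_apply, mulVec_single_one] at h1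
      have h2 := congrFun h1 i
      rw [Matrix.one_apply]
      have h3 : ((a : Matrix (Fin n) (Fin n) F) ^ r).col j i = ((a : Matrix (Fin n) (Fin n) F) ^ r) i j := rfl
      rw [h3] at h2
      rw [← h2, Pi.single_apply]
    have hdet : (a : Matrix (Fin n) (Fin n) F).det = 1 := by
      have h1 : (a : Matrix (Fin n) (Fin n) F).det ^ r = 1 := by rw [← det_pow, har, det_one]
      have h0 : (a : Matrix (Fin n) (Fin n) F).det ≠ 0 := by
        intro h0
        rw [h0, zero_pow hP.prime.ne_zero] at h1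
        exact zero_ne_one h1
      have h2 : orderOf (a : Matrix (Fin n) (Fin n) F).det ∣ r := orderOf_dvd_of_pow_eq_one h1
      have h3 : orderOf (a : Matrix (Fin n) (Fin n) F).det ∣ Fintype.card F - 1 :=
        orderOf_dvd_of_pow_eq_one (FiniteField.pow_card_sub_one_eq_one _ h0)
      rcases (Nat.dvd_prime hP.prime).1 h2 with h4 | h4
      · exact orderOf_eq_one_iff.1 h4
      · exfalso
        rw [h4, hF, hP.dvd_iff] at h3
        have := Nat.le_of_dvd hf h3
        nlinarith
    refine mem_pg_of hT e hc hx (mem_sl_iff.2 hdet) ?_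
    rw [hrep.au_eq, map_one, mul_one]
  · have h1 := hs'.pow' r
    rw [hr] at h1
    exact (h1.unique SR.one).1

omit [Finite G] [Fintype F] in
/-- the permutation of an element of `pg e X` -/
theorem pg_perm (hT : T.Normal) {a : GL (Fin n) F} (ha : a ∈ pg e X) :
    ∃ π ∈ Lf hT e X, ∀ w, π w = (a : Matrix (Fin n) (Fin n) F) *ᵥ w := by
  obtain ⟨s, rfl⟩ := exists_sl (pg_le e ha)
  obtain ⟨t, ht, h1⟩ := (mem_pg e).1 ha
  have h2 : au hT e (t : G) = Psi n F (Matrix.SpecialLinearGroup.toGL s) * phi n F 1 := by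
    rw [au_coe, h1, map_one, mul_one]
    exact (Psi_coe s).symm
  obtain ⟨π, hπ⟩ := exists_rep hT e h2
  exact ⟨π, ⟨t, ht, _, _, hπ⟩, hπ.eq⟩

omit [Fintype F] in
/-- **the scalars are multiplications** -/
theorem scal_mul [Fact p.Prime] {N : ℕ} (hF₁ : Fintype.card F₁ = p ^ N) (hP : Ppd p N r) {c0 : F₁} (hc0 : orderOf c0 = r)
    {a0 : Matrix (Fin n) (Fin n) F} (h0 : ∀ w, e₁ (a0 *ᵥ w) = c0 * e₁ w) (a : F) (x y : F₁) :
    e₁ (a • e₁.symm (x * y)) = x * e₁ (a • e₁.symm y) := by
  have hchar : CharP F₁ p := by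
    obtain ⟨l, hl⟩ := CharP.exists F₁
    have hlp : l.Prime := CharP.char_is_prime F₁ l
    obtain ⟨k, -, hk⟩ := FiniteField.card F₁ l
    have h1 : l ∣ p ^ N := by
      rw [← hF₁, hk]
      exact dvd_pow_self l k.2.ne'
    have h2 := (Nat.prime_dvd_prime_iff_eq hlp Fact.out).1 (hlp.dvd_of_dvd_pow h1)
    rwa [h2] at hl
  let S : Subfield F₁ :=
    { carrier := {x | ∀ y, e₁ (a • e₁.symm (x * y)) = x * e₁ (a • e₁.symm y)}
      mul_mem' := by
        intro x z hx hz y
        rw [mul_assoc, hx, hz, mul_assoc]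
      one_mem' := by
        intro y
        rw [one_mul, one_mul]
      add_mem' := by
        intro x z hx hz y
        rw [add_mul, map_add, smul_add, map_add, hx, hz, add_mul]
      zero_mem' := by
        intro y
        rw [zero_mul, zero_mul, map_zero, smul_zero, map_zero]
      neg_mem' := by
        intro x hx y
        rw [neg_mul, map_neg, smul_neg, map_neg, hx, neg_mul]
      inv_mem' := by
        intro x hx y
        by_cases h : x = 0
        · rw [h, _root_.inv_zero, zero_mul, zero_mul, map_zero, smul_zero, map_zero]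
        · apply mul_left_cancel₀ h
          rw [← hx, ← mul_assoc, ← mul_assoc, mul_inv_cancel₀ h, one_mul, one_mul] }
  have hc : c0 ∈ S := by
    intro y
    have h1 : e₁.symm (c0 * y) = a0 *ᵥ (e₁.symm y) := by
      rw [AddEquiv.symm_apply_eq, h0, e₁.apply_symm_apply]
    rw [h1, ← mulVec_smul, h0]
  classical
  have : Fintype S := Fintype.ofFinite S
  have hcS : CharP S p := inferInstance
  obtain ⟨k, -, hk⟩ := FiniteField.card S p
  have hc0' : c0 ≠ 0 := by
    rintro rfl
    rw [orderOf_zero] at hc0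
    exact hP.prime.ne_zero hc0.symm
  have h1 : (⟨c0, hc⟩ : S) ^ (Fintype.card S - 1) = 1 :=
    FiniteField.pow_card_sub_one_eq_one _ fun h => hc0' (congrArg Subtype.val h)
  have h2 : r ∣ p ^ (k : ℕ) - 1 := by
    rw [← hk, ← hc0]
    exact orderOf_dvd_of_pow_eq_one (congrArg Subtype.val h1)
  have h3 := Nat.le_of_dvd k.pos ((hP.dvd_iff _).1 h2)
  have h4 : Fintype.card F₁ ≤ Fintype.card S := by
    rw [hF₁, hk]
    exact Nat.pow_le_pow_right (Fact.out : p.Prime).pos h3
  have h5 : Function.Surjective (Subtype.val : S → F₁) :=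
    ((Fintype.bijective_iff_injective_and_card _).2 ⟨Subtype.val_injective,
      le_antisymm (Fintype.card_le_of_injective _ Subtype.val_injective) h4⟩).2
  obtain ⟨⟨x', hx'⟩, rfl⟩ := h5 x
  exact hx' y

end fac

section frob

variable {n : ℕ} {F : Type} [Field F] [Fintype F] {F₁ : Type} [Field F₁] [Fintype F₁] {e₁ : (Fin n → F) ≃+ F₁}

/-- the square of the Frobenius automorphism as an element of `SL_n(F)` -/
theorem exists_frob (h : ∀ (a : F) (x y : F₁), e₁ (a • e₁.symm (x * y)) = x * e₁ (a • e₁.symm y)) :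
    ∃ x ∈ specialLinear (Fin n) F, ∀ w, e₁ ((x : Matrix (Fin n) (Fin n) F) *ᵥ w) = (e₁ w) ^ (Fintype.card F ^ 2) := by
  have h1 : ∀ (a : F) (w : Fin n → F), e₁ (a • w) = e₁ (a • e₁.symm 1) * e₁ w := by
    intro a w
    have := h a (e₁ w) 1
    rw [mul_one, e₁.symm_apply_apply] at this
    rw [this, mul_comm]
  let ι : F →+* F₁ :=
    { toFun := fun a => e₁ (a • e₁.symm 1)
      map_one' := by rw [one_smul, e₁.apply_symm_apply]
      map_mul' := by
        intro a b
        rw [mul_smul, h1 a (b • _)]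
      map_zero' := by rw [zero_smul, map_zero]
      map_add' := by
        intro a b
        rw [add_smul, map_add] }
  letI : Algebra F F₁ := ι.toAlgebra
  let E : (Fin n → F) ≃ₗ[F] F₁ :=
    { e₁ with
      map_smul' := fun a w => by
        show e₁ (a • w) = ι a * e₁ w
        exact h1 a w }
  have hE : ∀ w, E w = e₁ w := fun _ => rfl
  let fr := FiniteField.frobeniusAlgEquivOfAlgebraic F F₁
  have hfr : ∀ z, fr z = z ^ Fintype.card F := fun z => congrFun (FiniteField.coe_frobeniusAlgEquivOfAlgebraic F F₁) z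
  let ψ : (Fin n → F) ≃ₗ[F] (Fin n → F) := E.trans ((fr.toLinearEquiv.trans fr.toLinearEquiv).trans E.symm)
  obtain ⟨x, hx, hd⟩ := exists_mat ψ
  refine ⟨x, mem_sl_iff.2 ?_, fun w => ?_⟩
  · rw [hd]
    have h2 : (ψ : (Fin n → F) →ₗ[F] (Fin n → F)) =
        (E.symm : F₁ →ₗ[F] (Fin n → F)) ∘ₗ (fr.toLinearMap ∘ₗ fr.toLinearMap) ∘ₗ (E.symm.symm : (Fin n → F) →ₗ[F] F₁) := by
      apply LinearMap.ext
      intro w
      rfl
    rw [h2, LinearMap.det_conj, LinearMap.det_comp]
    exact det_frob F F₁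
  · rw [hx]
    show e₁ (E.symm (fr (fr (E w)))) = _
    rw [hfr, hfr, ← pow_mul, ← pow_two]
    exact E.apply_symm_apply _

end frob

section main

variable {G : Type u} [Group G] [Finite G] {T : Subgroup G} {n : ℕ} {F : Type} [Field F] [Fintype F]
  {e : T ≃* Matrix.ProjectiveSpecialLinearGroup (Fin n) F} {v : Fin n → F}

omit [Fintype F] in
theorem gl_ext {a b : GL (Fin n) F}
    (h : ∀ w, (a : Matrix (Fin n) (Fin n) F) *ᵥ w = (b : Matrix (Fin n) (Fin n) F) *ᵥ w) : a = b := by
  apply Units.ext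
  ext i j
  have h1 := congrFun (h (Pi.single j 1)) i
  rwa [mulVec_single_one, mulVec_single_one] at h1

omit [Fintype F] in
theorem perm_pow {a : GL (Fin n) F} {π : Equiv.Perm (Fin n → F)}
    (h : ∀ w, π w = (a : Matrix (Fin n) (Fin n) F) *ᵥ w) (k : ℕ) (w : Fin n → F) :
    (π ^ k) w = ((a ^ k : GL (Fin n) F) : Matrix (Fin n) (Fin n) F) *ᵥ w := by
  induction k generalizing w with
  | zero => rw [pow_zero, pow_zero, Units.val_one, one_mulVec]; rfl
  | succ k ih => rw [pow_succ, Equiv.Perm.mul_apply, h, ih, mulVec_mulVec, ← Units.val_mul, ← pow_succ]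

/-- `q ^ n - 1` divides the order of the group of lifts -/
theorem dvd_card_lf {X Y : Subgroup G} (h : Fac T X Y) (hn : 3 ≤ n) (hs : VStab v ≤ pg e Y) (hv : v ≠ 0) :
    Fintype.card F ^ n - 1 ∣ Nat.card (Lf h.normal e X) := by
  classical
  have horb : MulAction.orbit (Lf h.normal e X) v = {(0 : Fin n → F)}ᶜ := by
    ext w
    constructor
    · rintro ⟨⟨π, hπ⟩, rfl⟩
      obtain ⟨x, hx, a, σ, hr⟩ := hπ
      show π v ≠ 0
      intro h0
      apply hv
      apply π.injective
      rw [h0, hr.map0]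
    · intro hw
      obtain ⟨π, hπ, c, hc, h1⟩ := lf_trans h hn hs hv hv (w := w) hw
      obtain ⟨ρ, hρ, h2⟩ := Rep.scal (hT := h.normal) (e := e) (Units.mk0 c hc)⁻¹
      refine ⟨⟨ρ * π, mul_mem ⟨1, X.one_mem, _, _, hρ⟩ hπ⟩, ?_⟩
      show ρ (π v) = w
      rw [h1, h2, Units.val_inv_eq_inv_val, Units.val_mk0, smul_smul, inv_mul_cancel₀ hc, one_smul]
  have h1 := MulAction.index_stabilizer (Lf h.normal e X) v
  rw [horb, Set.ncard_compl, Set.ncard_singleton, Nat.card_fun, Nat.card_fin, Nat.card_eq_fintype_card] at h1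
  rw [← h1]
  exact Subgroup.index_dvd_card _

/-- **PSL-6b** with Hering's theorem as a hypothesis -/
theorem hering_B' (hA : HAct) {H B : Subgroup G} (h : Ex T H B) (hf : Fac T H B) (hn : 3 ≤ n)
    (hv : v ≠ 0) (hs : VStab v ≤ pg e B) : False := by
  classical
  have hpp : (ringChar F).Prime := CharP.char_is_prime F _
  have hfact : Fact (ringChar F).Prime := ⟨hpp⟩
  set p := ringChar F with hp
  obtain ⟨⟨f, hf0⟩, -, hF⟩ := FiniteField.card F p
  replace hF : Fintype.card F = p ^ f := hF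
  obtain ⟨F₁, _, _, e₁, hcard, hsl⟩ := lf_one hA hf hn hs hv
  have hF₁ : Fintype.card F₁ = p ^ (n * f) := by rw [hcard, hF, ← pow_mul, mul_comm]
  have hlarge := hf.large.trans_le (card_le_pow e)
  have hq2 : 2 ≤ Fintype.card F := Fintype.one_lt_card
  have h6 : ¬ (p = 2 ∧ n * f = 6) := by
    rintro ⟨h1, h2⟩
    rw [hF, h1, ← pow_mul] at hlarge
    have h3 : f * (n * n) = 6 * n := by rw [← h2]; ring
    have h4 : n ≤ 6 := by
      have : n ∣ 6 := ⟨f, h2.symm⟩
      exact Nat.le_of_dvd (by norm_num) this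
    rw [h3] at hlarge
    have h5 : 2 ^ (6 * n) ≤ 2 ^ 36 := Nat.pow_le_pow_right (by norm_num) (by omega)
    have h7 := hlarge.trans_le h5
    revert h7
    norm_num [Nat.factorial]
  obtain ⟨r, hP⟩ := Cfsg.Agent.H728.DghpNum.exists_ppd (q := p) (e := n * f) hpp.two_le (by nlinarith) h6
  have hrp : Fact r.Prime := ⟨hP.prime⟩
  -- an element of order `r`
  have hrd : r ∣ Nat.card (Lf h.normal e H) := by
    refine dvd_trans ?_ (dvd_card_lf hf hn hs hv)
    rw [hF, ← pow_mul, hP.dvd_iff, mul_comm]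
  obtain ⟨⟨π0, hπ0⟩, ho⟩ := exists_prime_orderOf_dvd_card' r hrd
  have ho' : orderOf π0 = r := by rw [← ho]; exact (Subgroup.orderOf_mk _ _).symm
  have hπr : π0 ^ r = 1 := by rw [← ho']; exact pow_orderOf_eq_one _
  have hπ1 : π0 ≠ 1 := by
    rintro rfl
    rw [orderOf_one] at ho'
    exact hP.prime.one_lt.ne ho'
  obtain ⟨a0, ha0, haw, c0, hc0, hsr⟩ := of_pow_r h.normal h.cent hn hF hf0 hF₁ hP hsl hπ0 hπr
  have hc01 : c0 ≠ 1 := by
    rintro rfl
    apply hπ1
    apply Equiv.ext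
    intro w
    apply e₁.injective
    rw [hsr, one_mul]
    rfl
  have hoc : orderOf c0 = r := orderOf_eq_prime hc0 hc01
  obtain ⟨s0, rfl⟩ := exists_sl (pg_le e ha0)
  obtain ⟨t0, ht0H, ht0⟩ := (mem_pg e).1 ha0
  have hs0r : s0 ^ r = 1 := by
    apply H304.PslT.toGL_injective
    rw [map_pow, map_one]
    apply gl_ext
    intro w
    rw [← perm_pow haw, hπr, Units.val_one, one_mulVec]
    rfl
  -- uniqueness
  have hU : ∀ s : Matrix.SpecialLinearGroup (Fin n) F, Matrix.SpecialLinearGroup.toGL s ∈ pg e H → s ^ r = 1 →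
      ∃ k : ℕ, s = s0 ^ k := by
    intro s hs1 hs2
    obtain ⟨ρ, hρ, hρw⟩ := pg_perm h.normal hs1
    have hρr : ρ ^ r = 1 := by
      apply Equiv.ext
      intro w
      rw [perm_pow hρw, ← map_pow, hs2, map_one, Units.val_one, one_mulVec]
      rfl
    obtain ⟨a', -, -, c', hc', hsr'⟩ := of_pow_r h.normal h.cent hn hF hf0 hF₁ hP hsl hρ hρr
    have h1 : Units.mk0 c' hsr'.ne ∈ Subgroup.zpowers (Units.mk0 c0 hsr.ne) := by
      refine mem_zpowers_of_pow_orderOf _ _ ?_
      have h2 : orderOf (Units.mk0 c0 hsr.ne) = r := by rw [← hoc, ← orderOf_units, Units.val_mk0]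
      rw [h2]
      exact Units.ext (by rw [Units.val_pow_eq_pow_val, Units.val_mk0, Units.val_one, hc'])
    rw [← mem_powers_iff_mem_zpowers] at h1
    obtain ⟨k, hk⟩ := h1
    have hk' : c0 ^ k = c' := congrArg Units.val hk
    refine ⟨k, H304.PslT.toGL_injective ?_⟩
    rw [map_pow]
    apply gl_ext
    intro w
    rw [← hρw, ← perm_pow haw]
    apply e₁.injective
    rw [hsr', hsr.pow' k, hk']
  -- `H` normalises the subgroup
  have hq1 : Nat.Coprime r (Fintype.card F - 1) := by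
    rw [Nat.Prime.coprime_iff_not_dvd hP.prime, hF, hP.dvd_iff]
    intro h1
    have := Nat.le_of_dvd hf0 h1
    nlinarith
  have hN : ∀ x ∈ H, x * (t0 : G) * x⁻¹ ∈ Subgroup.zpowers (t0 : G) := by
    intro x hx
    let t' : T := ⟨x * t0 * x⁻¹, h.normal.conj_mem _ t0.2 x⟩
    obtain ⟨s', hs'⟩ := pr_surjective (e t')
    have ht0r : t0 ^ r = 1 := by
      apply e.injective
      rw [map_pow, ht0, ← map_pow, hs0r, map_one, map_one]
    have ht'r : t' ^ r = 1 := by
      apply Subtype.ext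
      show (x * t0 * x⁻¹) ^ r = 1
      rw [conj_pow]
      have : ((t0 : G)) ^ r = 1 := congrArg Subtype.val ht0r
      rw [this, mul_one, mul_inv_cancel]
    obtain ⟨m, hm1, hm2⟩ := Nat.chineseRemainder hq1 1 0
    have hz : s' ^ r ∈ Subgroup.center (Matrix.SpecialLinearGroup (Fin n) F) := by
      rw [← QuotientGroup.eq_one_iff]
      show pr (s' ^ r) = 1
      rw [map_pow, hs', ← map_pow, ht'r, map_one]
    have hzq : (s' ^ r) ^ (Fintype.card F - 1) = 1 := by
      rw [Matrix.SpecialLinearGroup.mem_center_iff] at hz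
      obtain ⟨c, hcn, hc⟩ := hz
      have hc0' : c ≠ 0 := by
        rintro rfl
        rw [Fintype.card_fin, zero_pow (by omega)] at hcn
        exact zero_ne_one hcn
      apply Subtype.ext
      show ((s' ^ r : Matrix.SpecialLinearGroup (Fin n) F) : Matrix (Fin n) (Fin n) F) ^ (Fintype.card F - 1) = 1
      rw [← hc, ← map_pow, FiniteField.pow_card_sub_one_eq_one _ hc0', map_one]
    have hm3 : Fintype.card F - 1 ∣ m := (Nat.modEq_zero_iff_dvd).1 hm2
    obtain ⟨j, hj⟩ := hm3
    have h1 : (s' ^ m) ^ r = 1 := by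
      rw [← pow_mul, mul_comm m r, pow_mul, hj, pow_mul, hzq, one_pow]
    have h2 : e t' = pr (s' ^ m) := by
      rw [map_pow, hs', ← map_pow]
      congr 1
      have h3 : t' ^ m = t' ^ 1 := by
        rw [pow_eq_pow_iff_modEq]
        exact hm1.of_dvd (orderOf_dvd_of_pow_eq_one ht'r)
      rw [h3, pow_one]
    obtain ⟨k, hk⟩ := hU (s' ^ m) ((mem_pg e).2 ⟨t', H.mul_mem (H.mul_mem hx ht0H) (H.inv_mem hx), h2⟩) h1
    rw [hk, map_pow, ← ht0, ← map_pow] at h2
    have h3 : x * (t0 : G) * x⁻¹ = (t0 : G) ^ k := congrArg Subtype.val (e.injective h2)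
    rw [h3]
    exact pow_mem (Subgroup.mem_zpowers _) k
  have hnorm : ∀ x : G, x * (t0 : G) * x⁻¹ ∈ Subgroup.zpowers (t0 : G) →
      x ∈ Subgroup.normalizer ((Subgroup.zpowers (t0 : G) : Subgroup G) : Set G) := by
    intro x hx
    apply Subgroup.mem_normalizer_fintype
    rintro _ ⟨k, rfl⟩
    show x * (t0 : G) ^ k * x⁻¹ ∈ Subgroup.zpowers (t0 : G)
    rw [← conj_zpow]
    exact zpow_mem hx k
  have hle : H ≤ Subgroup.normalizer ((Subgroup.zpowers (t0 : G) : Subgroup G) : Set G) := fun x hx =>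
    hnorm x (hN x hx)
  have hnt : Subgroup.normalizer ((Subgroup.zpowers (t0 : G) : Subgroup G) : Set G) ≠ ⊤ := by
    intro htop
    have hn' : (Subgroup.zpowers (t0 : G)).Normal := Subgroup.normalizer_eq_top_iff.1 htop
    have hn2 : ((Subgroup.zpowers (t0 : G)).subgroupOf T).Normal := hn'.subgroupOf T
    have := h.simple
    rcases hn2.eq_bot_or_eq_top with h1 | h1
    · have h2 : t0 ∈ (Subgroup.zpowers (t0 : G)).subgroupOf T := by
        rw [Subgroup.mem_subgroupOf]
        exact Subgroup.mem_zpowers _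
      rw [h1, Subgroup.mem_bot] at h2
      rw [h2, map_one] at ht0
      have h7 : s0 ∈ Subgroup.center (Matrix.SpecialLinearGroup (Fin n) F) := by
        rw [← QuotientGroup.eq_one_iff]
        exact ht0.symm
      rw [Matrix.SpecialLinearGroup.mem_center_iff] at h7
      obtain ⟨c, hcn, hc⟩ := h7
      have hc0' : c ≠ 0 := by
        rintro rfl
        rw [Fintype.card_fin, zero_pow (by omega)] at hcn
        exact zero_ne_one hcn
      have h8 : s0 ^ (Fintype.card F - 1) = 1 := by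
        apply Subtype.ext
        show (s0 : Matrix (Fin n) (Fin n) F) ^ (Fintype.card F - 1) = 1
        rw [← hc, ← map_pow, FiniteField.pow_card_sub_one_eq_one _ hc0', map_one]
      have h9 : orderOf s0 ∣ Nat.gcd r (Fintype.card F - 1) :=
        Nat.dvd_gcd (orderOf_dvd_of_pow_eq_one hs0r) (orderOf_dvd_of_pow_eq_one h8)
      rw [hq1.gcd_eq_one, Nat.dvd_one, orderOf_eq_one_iff] at h9
      apply hπ1
      apply Equiv.ext
      intro w
      rw [haw, h9, map_one, Units.val_one, one_mulVec]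
      rfl
    · apply h.nonab
      rw [Subgroup.subgroupOf_eq_top] at h1
      refine ⟨⟨fun a b => Subtype.ext ?_⟩⟩
      obtain ⟨i, hi⟩ := h1 a.2
      obtain ⟨j, hj⟩ := h1 b.2
      simp only at hi hj
      change (a : G) * b = b * a
      rw [← hi, ← hj, ← _root_.zpow_add, ← _root_.zpow_add, add_comm]
  have hHn : Subgroup.normalizer ((Subgroup.zpowers (t0 : G) : Subgroup G) : Set G) = H := by
    rcases h.max.le_iff.1 hle with h1 | h1
    · exact absurd h1 hnt
    · exact h1
  -- the square of the Frobenius automorphism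
  obtain ⟨x, hx, hxw⟩ := exists_frob (e₁ := e₁) (fun a y z => scal_mul (n := n) (F := F) hF₁ hP hoc
    (a0 := (Matrix.SpecialLinearGroup.toGL s0 : Matrix (Fin n) (Fin n) F)) (fun w => by
      rw [← haw]
      exact hsr w) a y z)
  obtain ⟨sx, rfl⟩ := exists_sl hx
  have hcomm : sx * s0 = s0 ^ (Fintype.card F ^ 2) * sx := by
    apply H304.PslT.toGL_injective
    rw [map_mul, map_mul, map_pow]
    apply gl_ext
    intro w
    apply e₁.injective
    rw [Units.val_mul, ← mulVec_mulVec, hxw, ← haw, hsr, Units.val_mul, ← mulVec_mulVec, ← perm_pow haw,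
      hsr.pow' (Fintype.card F ^ 2), hxw]
    show (c0 * e₁ w) ^ _ = _ * (e₁ w) ^ _
    rw [mul_pow]
  obtain ⟨tx, htx⟩ := e.surjective (pr sx)
  have h1 : tx * t0 * tx⁻¹ = t0 ^ (Fintype.card F ^ 2) := by
    apply e.injective
    rw [map_mul, map_mul, map_inv, map_pow, ht0, htx, ← map_mul, hcomm, map_mul, map_pow, mul_inv_cancel_right]
  have h2 : (tx : G) ∈ H := by
    rw [← hHn]
    apply hnorm
    have h3 : (tx : G) * t0 * (tx : G)⁻¹ = (t0 : G) ^ (Fintype.card F ^ 2) := congrArg Subtype.val h1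
    rw [h3]
    exact pow_mem (Subgroup.mem_zpowers _) _
  have h3 : Matrix.SpecialLinearGroup.toGL sx ∈ pg e H := (mem_pg e).2 ⟨tx, h2, htx⟩
  have h4 : Matrix.SpecialLinearGroup.toGL sx = 1 := by
    refine semireg hf hn hs hv h3 (w := e₁.symm 1) ?_ ?_
    · intro h0
      have := congrArg e₁ h0
      rw [e₁.apply_symm_apply, map_zero] at this
      exact one_ne_zero this
    · apply e₁.injective
      rw [hxw, e₁.apply_symm_apply, one_pow]
  have h5 : ∀ z : F₁, z ^ (Fintype.card F ^ 2) = z := by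
    intro z
    have := hxw (e₁.symm z)
    rw [h4, Units.val_one, one_mulVec, e₁.apply_symm_apply] at this
    exact this.symm
  have h7 : Fintype.card F₁ - 1 ∣ Fintype.card F ^ 2 - 1 := by
    rw [← FiniteField.forall_pow_eq_one_iff]
    intro z
    have h8 : z ^ (Fintype.card F ^ 2 - 1) * z = z := by
      rw [← pow_succ, Nat.sub_add_cancel (Nat.one_le_pow _ _ (by omega))]
      exact Units.ext (by rw [Units.val_pow_eq_pow_val]; exact h5 z)
    exact mul_eq_right.1 h8
  have h9 : Fintype.card F ^ 2 < Fintype.card F ^ n := Nat.pow_lt_pow_right (by omega) (by omega)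
  have h10 : 2 ^ 2 ≤ Fintype.card F ^ 2 := Nat.pow_le_pow_left hq2 2
  have h11 := Nat.le_of_dvd (by omega) h7
  rw [hcard] at h11
  omega

end main

end Cfsg.Agent.H831.Rl
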